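import Cfsg.Agent.H943.E7V.TorMain

/-!
# `E₇(2)` has no fixed vectors and no fixed functionals on the 56-dimensional module
-/

set_option autoImplicit false
set_option linter.unusedSectionVars false
set_option maxRecDepth 100000

namespace Cfsg.Agent.H943.E7V.Fix

open Cfsg Cfsg.Lie Cfsg.Lie.ChevalleyDatum
open Cfsg.Agent.ChevalleyStructure Cfsg.Agent.ChevalleyStructure.Elts Cfsg.Agent.ChevalleyStructure.CoxeterGeom
  Cfsg.Agent.ChevalleyStructure.CoxeterGeomTypes
  Cfsg.Agent.ChevalleyStructure.RootVec Cfsg.Agent.ChevalleyStructure.RootVecTab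
open Cfsg.Agent.ChevalleyStructure.StBasic Cfsg.Agent.ChevalleyStructure.StTheta Cfsg.Agent.ChevalleyStructure.StEmbed
open Cfsg.Agent.KFacts.En.Roots Cfsg.Agent.H120.StSeven
open Cfsg.Agent.H943.E7V.Block Cfsg.Agent.H943.E7V.TorMain

theorem x_entry {D : ChevalleyDatum} {K : Type} [Field K] {r : ℕ} (hr : r < D.nroots) {s u : Fin D.nroots}
    (h1 : (s : ℕ) ≠ r) (h2 : (s : ℕ) ≠ D.negIdx.getD r 0) (t : K) :
    D.x K r t (Sum.inr u) (Sum.inr s) = (if u = s then 1 else 0) +
      ((D.chainCoeff r s u).map fun km => ((km.2 : ℤ) : K) * t ^ km.1).sum := by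
  unfold ChevalleyDatum.x
  rw [dif_pos hr]
  unfold ChevalleyDatum.xMat
  rw [Matrix.of_apply]
  have h3 : s ≠ ⟨r, hr⟩ := fun h => h1 (congrArg Fin.val h)
  simp only [if_neg h3, if_neg h2]

/-- the weights are moved by root elements: `(s, r, u)` with `u = s + r` -/
def TT : List (ℕ × ℕ × ℕ) :=
  [(120, 63, 122), (120, 65, 125), (120, 68, 129), (120, 72, 134), (120, 77, 140), (120, 82, 146), (120, 86,
   151), (120, 89, 155), (120, 91, 158), (120, 92, 160), (120, 98, 168), (120, 102, 173), (120, 105, 177),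
   (120, 107, 180), (120, 108, 182), (120, 111, 187), (120, 113, 190), (120, 114, 192), (120, 116, 196), (120,
   117, 198), (120, 118, 201), (120, 120, 206), (120, 121, 208), (120, 122, 211), (120, 123, 215), (120, 124,
   220), (120, 125, 227), (122, 62, 120), (122, 92, 161), (122, 108, 183), (122, 114, 193), (122, 117, 199),
   (122, 118, 202), (122, 121, 209), (122, 122, 212), (122, 123, 216), (122, 124, 221), (122, 125, 228), (125,
   60, 120), (125, 118, 203), (125, 122, 213), (125, 123, 217), (125, 124, 222), (125, 125, 229), (129, 57,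
   120), (129, 123, 218), (129, 124, 223), (129, 125, 230), (134, 53, 120), (134, 124, 224), (134, 125, 231),
   (140, 48, 120), (140, 125, 232), (146, 43, 120), (146, 124, 225), (146, 125, 233), (151, 39, 120), (151,
   125, 234), (155, 36, 120), (155, 125, 235), (158, 34, 120), (158, 125, 236), (160, 33, 120), (160, 125,
   237), (161, 33, 122), (161, 125, 238), (168, 27, 120), (173, 23, 120), (177, 20, 120), (180, 18, 120),
   (182, 17, 120), (183, 17, 122), (187, 14, 120), (190, 12, 120), (192, 11, 120), (193, 11, 122), (196, 9,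
   120), (198, 8, 120), (199, 8, 122), (201, 7, 120), (202, 7, 122), (203, 7, 125), (206, 5, 120), (208, 4,
   120), (209, 4, 122), (211, 3, 120), (212, 3, 122), (213, 3, 125), (215, 2, 120), (216, 2, 122), (217, 2,
   125), (218, 2, 129), (220, 1, 120), (221, 1, 122), (222, 1, 125), (223, 1, 129), (224, 1, 134), (225, 1,
   146), (227, 0, 120), (228, 0, 122), (229, 0, 125), (230, 0, 129), (231, 0, 134), (232, 0, 140), (233, 0,
   146), (234, 0, 151), (235, 0, 155), (236, 0, 158), (237, 0, 160), (238, 0, 161)]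

/-- the entries in the row of `u` -/
def chkRow1 (r s u : ℕ) : Bool := (List.range 240).all fun t =>
  bif Int.decEq (rt chevE8 t 7) 1 |>.decide then
    (bif Nat.beq t s then (decide (chevE8.chainCoeff r t u = [(1, 1)]) || decide (chevE8.chainCoeff r t u = [(1, -1)]))
      else decide (chevE8.chainCoeff r t u = [])) else true

/-- the entries in the column of `s` -/
def chkCol1 (r s u : ℕ) : Bool := (List.range 240).all fun t =>
  bif Int.decEq (rt chevE8 t 7) 1 |>.decide then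
    (bif Nat.beq t u then (decide (chevE8.chainCoeff r s t = [(1, 1)]) || decide (chevE8.chainCoeff r s t = [(1, -1)]))
      else decide (chevE8.chainCoeff r s t = [])) else true

/-- the check of the table -/
def chkT : Bool := TT.all fun x => decide (x.2.1 < 126) && decide (x.1 ≠ x.2.2) &&
  chkRow1 (ι78 x.2.1) x.1 x.2.2 && chkCol1 (ι78 x.2.1) x.1 x.2.2

/-- the check of one row of the table -/
def chkP (x : ℕ × ℕ × ℕ) : Bool := decide (x.2.1 < 126) && decide (x.1 ≠ x.2.2) &&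
  chkRow1 (ι78 x.2.1) x.1 x.2.2 && chkCol1 (ι78 x.2.1) x.1 x.2.2

theorem chkT_1 : (TT.take 24).all chkP = true := by decide +kernel
theorem chkT_2 : ((TT.drop 24).take 24).all chkP = true := by decide +kernel
theorem chkT_3 : ((TT.drop 48).take 24).all chkP = true := by decide +kernel
theorem chkT_4 : ((TT.drop 72).take 24).all chkP = true := by decide +kernel
theorem chkT_5 : (TT.drop 96).all chkP = true := by decide +kernel

theorem TT_split : TT = TT.take 24 ++ ((TT.drop 24).take 24 ++ ((TT.drop 48).take 24 ++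
    ((TT.drop 72).take 24 ++ TT.drop 96))) := by rfl

theorem chkT_true : chkT = true := by
  show TT.all chkP = true
  rw [TT_split, List.all_append, List.all_append, List.all_append, List.all_append, chkT_1, chkT_2, chkT_3,
    chkT_4, chkT_5]
  rfl

theorem src : ∀ s < 240, rt chevE8 s 7 = 1 → ∃ x ∈ TT, x.1 = s ∧ x.2.2 < 240 ∧ rt chevE8 x.2.2 7 = 1 := by decide +kernel

theorem tgt : ∀ s < 240, rt chevE8 s 7 = 1 → ∃ x ∈ TT, x.2.2 = s ∧ x.1 < 240 ∧ rt chevE8 x.1 7 = 1 := by decide +kernel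

theorem chk_spec {x : ℕ × ℕ × ℕ} (hx : x ∈ TT) : x.2.1 < 126 ∧ x.1 ≠ x.2.2 ∧
    (∀ t < 240, rt chevE8 t 7 = 1 → chevE8.chainCoeff (ι78 x.2.1) t x.2.2 = [(1, 1)] ∧ t = x.1 ∨
      chevE8.chainCoeff (ι78 x.2.1) t x.2.2 = [(1, -1)] ∧ t = x.1 ∨
      chevE8.chainCoeff (ι78 x.2.1) t x.2.2 = [] ∧ t ≠ x.1) ∧
    (∀ t < 240, rt chevE8 t 7 = 1 → chevE8.chainCoeff (ι78 x.2.1) x.1 t = [(1, 1)] ∧ t = x.2.2 ∨
      chevE8.chainCoeff (ι78 x.2.1) x.1 t = [(1, -1)] ∧ t = x.2.2 ∨
      chevE8.chainCoeff (ι78 x.2.1) x.1 t = [] ∧ t ≠ x.2.2) := by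
  have h := List.all_eq_true.1 chkT_true x hx
  rw [Bool.and_eq_true, Bool.and_eq_true, Bool.and_eq_true, decide_eq_true_iff, decide_eq_true_iff] at h
  obtain ⟨⟨⟨h1, h2⟩, h3⟩, h4⟩ := h
  refine ⟨h1, h2, ?_, ?_⟩
  · intro t ht h0
    have h5 := List.all_eq_true.1 h3 t (List.mem_range.2 ht)
    have h6 : (Int.decEq (rt chevE8 t 7) 1).decide = true := by
      rw [decide_eq_true_iff]; exact h0
    rw [h6, cond_true] at h5
    by_cases hts : t = x.1
    · have h7 : Nat.beq t x.1 = true := by rw [Nat.beq_eq]; exact hts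
      rw [h7, cond_true, Bool.or_eq_true, decide_eq_true_iff, decide_eq_true_iff] at h5
      rcases h5 with h5 | h5
      · exact Or.inl ⟨h5, hts⟩
      · exact Or.inr (Or.inl ⟨h5, hts⟩)
    · have h7 : Nat.beq t x.1 = false := by
        cases hb : Nat.beq t x.1 with
        | false => rfl
        | true => exact absurd (Nat.eq_of_beq_eq_true hb) hts
      rw [h7, cond_false, decide_eq_true_iff] at h5
      exact Or.inr (Or.inr ⟨h5, hts⟩)
  · intro t ht h0
    have h5 := List.all_eq_true.1 h4 t (List.mem_range.2 ht)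
    have h6 : (Int.decEq (rt chevE8 t 7) 1).decide = true := by
      rw [decide_eq_true_iff]; exact h0
    rw [h6, cond_true] at h5
    by_cases hts : t = x.2.2
    · have h7 : Nat.beq t x.2.2 = true := by rw [Nat.beq_eq]; exact hts
      rw [h7, cond_true, Bool.or_eq_true, decide_eq_true_iff, decide_eq_true_iff] at h5
      rcases h5 with h5 | h5
      · exact Or.inl ⟨h5, hts⟩
      · exact Or.inr (Or.inl ⟨h5, hts⟩)
    · have h7 : Nat.beq t x.2.2 = false := by
        cases hb : Nat.beq t x.2.2 with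
        | false => rfl
        | true => exact absurd (Nat.eq_of_beq_eq_true hb) hts
      rw [h7, cond_false, decide_eq_true_iff] at h5
      exact Or.inr (Or.inr ⟨h5, hts⟩)

/-- the root element of `E₇(2)` -/
noncomputable def rx (r : ℕ) : ↥(chevE7.group (ZMod 2)) := eqv (chevE7.stGen (ZMod 2) r 1)

theorem RR_rx {r : ℕ} (hr : r < 126) (a b : D1) : RR (rx r) a b =
    chevE8.x (ZMod 2) (ι78 r) 1 (Sum.inr a.1) (Sum.inr b.1) := by
  have h1 : RR (rx r) = rho (ZMod 2) (chevE7.stGen (ZMod 2) r 1) := by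
    show rho (ZMod 2) (eqv.symm (eqv (chevE7.stGen (ZMod 2) r 1))) = _
    rw [MulEquiv.symm_apply_apply]
  have h2 : ((H120.StSeven.alpha (ZMod 2) (chevE7.stGen (ZMod 2) r 1) : ↥(chevE8.group (ZMod 2))) :
      GL chevE8.Idx (ZMod 2)) = xG ty_E8.ty.inList (ι78 r) 1 := by
    show ((theta ty_E8.ty.inList (ZMod 2) (hom emb78 (ZMod 2) (chevE7.stGen (ZMod 2) r 1)) :
      ↥(chevE8.group (ZMod 2))) : GL chevE8.Idx (ZMod 2)) = _
    rw [hom_stGen emb78 hr, coe_theta, thetaGL_stGen]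
  rw [h1, rho_apply, h2]
  rfl

theorem iota_lt {r : ℕ} (hr : r < 126) : ι78 r < chevE8.nroots := emb78.lt r hr

theorem col_ne {r : ℕ} (hr : r < 126) (b : D1) : ((b : Fin chevE8.nroots) : ℕ) ≠ ι78 r ∧
    ((b : Fin chevE8.nroots) : ℕ) ≠ chevE8.negIdx.getD (ι78 r) 0 := by
  have h0 := grade_iota r hr
  refine ⟨fun h => ?_, fun h => ?_⟩
  · have h1 := b.2
    rw [h, h0] at h1
    exact absurd h1 (by norm_num)
  · have h1 := b.2
    have h3 := rt_neg checked_E8 (iota_lt hr) 7
    rw [h0] at h3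
    change rt chevE8 (chevE8.negIdx.getD (ι78 r) 0) 7 = _ at h3
    rw [← h, h1] at h3
    exact absurd h3 (by norm_num)

theorem sum_chain {L : List (ℕ × ℤ)} : (L = [(1, 1)] ∨ L = [(1, -1)] →
    (L.map fun km => ((km.2 : ℤ) : ZMod 2) * 1 ^ km.1).sum = 1) ∧
    (L = [] → (L.map fun km => ((km.2 : ℤ) : ZMod 2) * 1 ^ km.1).sum = 0) := by
  refine ⟨?_, ?_⟩
  · rintro (rfl | rfl) <;> simp
  · rintro rfl; rfl

/-- the row of `u` -/
theorem row_eq {x : ℕ × ℕ × ℕ} (hx : x ∈ TT) {a : D1} (ha : ((a : Fin chevE8.nroots) : ℕ) = x.2.2) (b : D1) :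
    RR (rx x.2.1) a b = (if b = a then 1 else 0) + if ((b : Fin chevE8.nroots) : ℕ) = x.1 then 1 else 0 := by
  obtain ⟨h1, h2, h3, -⟩ := chk_spec hx
  obtain ⟨n1, n2⟩ := col_ne h1 b
  rw [RR_rx h1, x_entry (iota_lt h1) n1 n2]
  congr 1
  · simp only [Subtype.ext_iff, eq_comm]
  · rw [ha]
    rcases h3 b.1 b.1.2 b.2 with ⟨h, ht⟩ | ⟨h, ht⟩ | ⟨h, ht⟩
    · rw [if_pos ht]; exact sum_chain.1 (Or.inl h)
    · rw [if_pos ht]; exact sum_chain.1 (Or.inr h)
    · rw [if_neg ht]; exact sum_chain.2 h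

/-- the column of `s` -/
theorem col_eq {x : ℕ × ℕ × ℕ} (hx : x ∈ TT) {b : D1} (hb : ((b : Fin chevE8.nroots) : ℕ) = x.1) (a : D1) :
    RR (rx x.2.1) a b = (if a = b then 1 else 0) + if ((a : Fin chevE8.nroots) : ℕ) = x.2.2 then 1 else 0 := by
  obtain ⟨h1, h2, -, h3⟩ := chk_spec hx
  obtain ⟨n1, n2⟩ := col_ne h1 b
  rw [RR_rx h1, x_entry (iota_lt h1) n1 n2]
  congr 1
  · simp only [Subtype.ext_iff]
  · rw [hb]
    rcases h3 a.1 a.1.2 a.2 with ⟨h, ht⟩ | ⟨h, ht⟩ | ⟨h, ht⟩
    · rw [if_pos ht]; exact sum_chain.1 (Or.inl h)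
    · rw [if_pos ht]; exact sum_chain.1 (Or.inr h)
    · rw [if_neg ht]; exact sum_chain.2 h

/-- **no fixed vectors** -/
theorem fix_vec {v : D1 → ZMod 2} (h : ∀ g, (RR g).mulVec v = v) : v = 0 := by
  funext b
  obtain ⟨x, hx, hxs, hu, hu7⟩ := src b.1 b.1.2 b.2
  let a : D1 := ⟨⟨x.2.2, hu⟩, hu7⟩
  have h1 := congrFun (h (rx x.2.1)) a
  rw [Matrix.mulVec, dotProduct] at h1
  simp only [row_eq hx (a := a) rfl, add_mul, ite_mul, one_mul, zero_mul] at h1
  rw [Finset.sum_add_distrib, Finset.sum_ite_eq' Finset.univ a, if_pos (Finset.mem_univ _)] at h1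
  have h2 : ∀ c : D1, (((c : Fin chevE8.nroots) : ℕ) = x.1) ↔ c = b := by
    intro c
    rw [hxs]
    constructor
    · intro h; exact Subtype.ext (Fin.ext h)
    · intro h; rw [h]
  simp only [h2] at h1
  rw [Finset.sum_ite_eq' Finset.univ b, if_pos (Finset.mem_univ _)] at h1
  exact add_eq_left.1 h1

/-- **no fixed functionals** -/
theorem fix_fun {v : D1 → ZMod 2} (h : ∀ g, Matrix.vecMul v (RR g) = v) : v = 0 := by
  funext b
  obtain ⟨x, hx, hxs, hu, hu7⟩ := tgt b.1 b.1.2 b.2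
  let a : D1 := ⟨⟨x.1, hu⟩, hu7⟩
  have h1 := congrFun (h (rx x.2.1)) a
  rw [Matrix.vecMul, dotProduct] at h1
  simp only [col_eq hx (b := a) rfl, mul_add, mul_ite, mul_one, mul_zero] at h1
  rw [Finset.sum_add_distrib, Finset.sum_ite_eq' Finset.univ a, if_pos (Finset.mem_univ _)] at h1
  have h2 : ∀ c : D1, (((c : Fin chevE8.nroots) : ℕ) = x.2.2) ↔ c = b := by
    intro c
    rw [hxs]
    constructor
    · intro h; exact Subtype.ext (Fin.ext h)
    · intro h; rw [h]
  simp only [h2] at h1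
  rw [Finset.sum_ite_eq' Finset.univ b, if_pos (Finset.mem_univ _)] at h1
  exact add_eq_left.1 h1

end Cfsg.Agent.H943.E7V.Fix
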