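import Mathlib
import Cfsg.Agent.H943.SL2Rel

/-!
# A module for `SL(2, 27)` in characteristic 2 (S5935): fixed vectors or fixed functionals
-/

set_option autoImplicit false
set_option linter.unusedSectionVars false

namespace Cfsg.Agent.H943.E7V.L27M

open Module Cfsg.Agent.H943.SL2Rel

variable {k : Type*} [Field k] [CharP k 2] {V : Type*} [AddCommGroup V] [Module k V] [FiniteDimensional k V]
  {F : Type*} [Field F] [Fintype F] [DecidableEq F]
  (τ : Representation k (Matrix.SpecialLinearGroup (Fin 2) F) V)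

/-- the vectors fixed by the root group -/
def XX : Submodule k V where
  carrier := {v | ∀ t : F, τ (u t) v = v}
  zero_mem' t := map_zero _
  add_mem' {a b} ha hb t := by rw [map_add, ha t, hb t]
  smul_mem' c v hv t := by rw [map_smul, hv t]

/-- the vectors fixed by the torus -/
def WW : Submodule k V where
  carrier := {v | ∀ a : Fˣ, τ (h a) v = v}
  zero_mem' t := map_zero _
  add_mem' {a b} ha hb t := by rw [map_add, ha t, hb t]
  smul_mem' c v hv t := by rw [map_smul, hv t]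

/-- the sum over the root group -/
noncomputable def PP : End k V := ∑ t : F, τ (u t)

variable {τ}

theorem PP_apply (v : V) : PP τ v = ∑ t : F, τ (u t) v := by
  rw [PP, LinearMap.sum_apply]

theorem u_PP (s : F) (v : V) : τ (u s) (PP τ v) = PP τ v := by
  rw [PP_apply, map_sum]
  refine Fintype.sum_equiv (Equiv.addLeft s) _ _ fun t => ?_
  rw [Equiv.coe_addLeft, u_add, map_mul, End.mul_apply]

theorem PP_u (s : F) (v : V) : PP τ (τ (u s) v) = PP τ v := by
  rw [PP_apply, PP_apply]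
  refine Fintype.sum_equiv (Equiv.addRight s) _ _ fun t => ?_
  rw [Equiv.coe_addRight, u_add, map_mul, End.mul_apply]

theorem PP_mem (v : V) : PP τ v ∈ XX τ := fun s => u_PP s v

theorem add_self (k : Type*) [Field k] [CharP k 2] {V : Type*} [AddCommGroup V] [Module k V] (v : V) : v + v = 0 := by
  have h5 : ((2 : ℕ) : k) • v = 0 := by rw [CharP.cast_eq_zero k 2, zero_smul]
  rw [Nat.cast_smul_eq_nsmul, two_nsmul] at h5
  exact h5

theorem odd_nsmul (k : Type*) [Field k] [CharP k 2] {V : Type*} [AddCommGroup V] [Module k V] {n : ℕ} (hn : Odd n)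
    (v : V) : n • v = v := by
  obtain ⟨m, rfl⟩ := hn
  rw [add_nsmul, two_mul, add_nsmul, one_nsmul, add_self k, zero_add]

theorem PP_of_mem (hF : Odd (Fintype.card F)) {v : V} (hv : v ∈ XX τ) : PP τ v = v := by
  rw [PP_apply, Finset.sum_congr rfl fun t _ => hv t, Finset.sum_const, Finset.card_univ]
  exact odd_nsmul k hF v

theorem PP_h (hXW : XX τ ≤ WW τ) (a : Fˣ) (v : V) : PP τ (τ (h a) v) = PP τ v := by
  have h1 : PP τ (τ (h a) v) = τ (h a) (PP τ v) := by
    rw [PP_apply, PP_apply, map_sum]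
    have ha : (a : F) ^ 2 ≠ 0 := pow_ne_zero _ a.ne_zero
    symm
    refine Fintype.sum_bijective (fun t => (a : F) ^ 2 * t) (mulLeft_bijective₀ _ ha) _ _ fun t => ?_
    rw [← End.mul_apply, ← End.mul_apply, ← map_mul, ← map_mul, h_u]
  rw [h1]
  exact hXW (PP_mem v) a

theorem fix_all {v : V} (hX : v ∈ XX τ) (hW : v ∈ WW τ) (hw : τ w v = v) (g : Matrix.SpecialLinearGroup (Fin 2) F) :
    τ g v = v := by
  refine induct (P := fun g => τ g v = v) hX hW hw ?_ g
  intro a b ha hb
  rw [map_mul, End.mul_apply, hb, ha]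

theorem fun_all {f : Dual k V} (hX : ∀ t, f ∘ₗ τ (u t) = f) (hW : ∀ a, f ∘ₗ τ (h a) = f) (hw : f ∘ₗ τ w = f)
    (g : Matrix.SpecialLinearGroup (Fin 2) F) : f ∘ₗ τ g = f := by
  refine induct (P := fun g => f ∘ₗ τ g = f) hX hW hw ?_ g
  intro a b ha hb
  rw [map_mul, End.mul_eq_comp, ← LinearMap.comp_assoc, ha, hb]

/-- the sum over the cosets of the Borel subgroup -/
theorem w_key (hXW : XX τ ≤ WW τ) (hc : τ (h (-1)) = 1) {v : V} (hv : v ∈ XX τ) :
    τ w (v + PP τ (τ w v)) = v + PP τ (τ w v) := by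
  have h1 : τ w (PP τ (τ w v)) = v + (PP τ (τ w v) - τ w v) := by
    have h2 : τ w (PP τ (τ w v)) = ∑ t : F, τ (w * u t * w) v := by
      rw [PP_apply, map_sum]
      refine Finset.sum_congr rfl fun t _ => ?_
      rw [map_mul, map_mul]
      rfl
    rw [h2, ← Finset.add_sum_erase _ _ (Finset.mem_univ (0 : F))]
    congr 1
    · rw [u_zero, mul_one, w_w, hc]; rfl
    · have h3 : PP τ (τ w v) = τ (u 0) (τ w v) + ∑ t ∈ Finset.univ.erase (0 : F), τ (u t) (τ w v) := by
        rw [PP_apply]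
        exact (Finset.add_sum_erase Finset.univ (fun t : F => τ (u t) (τ w v)) (Finset.mem_univ 0)).symm
      rw [h3, u_zero, map_one, End.one_apply, add_sub_cancel_left]
      refine Finset.sum_bij' (fun t _ => -t⁻¹) (fun t _ => -t⁻¹) ?_ ?_ ?_ ?_ ?_
      · intro t ht
        rw [Finset.mem_erase] at ht ⊢
        exact ⟨neg_ne_zero.2 (inv_ne_zero ht.1), Finset.mem_univ _⟩
      · intro t ht
        rw [Finset.mem_erase] at ht ⊢
        exact ⟨neg_ne_zero.2 (inv_ne_zero ht.1), Finset.mem_univ _⟩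
      · intro t ht
        rw [inv_neg, neg_neg, inv_inv]
      · intro t ht
        rw [inv_neg, neg_neg, inv_inv]
      · intro t ht
        rw [Finset.mem_erase] at ht
        rw [w_u_w t ht.1, map_mul, End.mul_apply, hv, mul_assoc, h_w, map_mul, map_mul, End.mul_apply, End.mul_apply,
          hXW hv]
  rw [map_add, h1]
  abel

theorem PP_w (hF : Odd (Fintype.card F)) (hXW : XX τ ≤ WW τ) (hc : τ (h (-1)) = 1)
    (hv : ∀ v, (∀ s, τ s v = v) → v = 0) {v : V} (hvX : v ∈ XX τ) : PP τ (τ w v) = v := by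
  have h1 : v + PP τ (τ w v) ∈ XX τ := add_mem hvX (PP_mem _)
  have h2 := hv _ (fix_all h1 (hXW h1) (w_key hXW hc hvX))
  have h3 := add_self k v
  exact (add_left_cancel (h3.trans h2.symm)).symm

theorem w_mem {v : V} (hvW : v ∈ WW τ) : τ w v ∈ WW τ := by
  intro a
  rw [← End.mul_apply, ← map_mul, h_w, map_mul, End.mul_apply, hvW]

/-- **No such module without fixed vectors and functionals.** -/
theorem main (hF : Fintype.card F = 27) (hc : τ (h (-1)) = 1) (hX : finrank k (XX τ) = 4)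
    (hXW : XX τ ≤ WW τ) (hW : finrank k (WW τ) = 8) (hv : ∀ v, (∀ s, τ s v = v) → v = 0)
    (hf : ∀ f : Dual k V, (∀ s, f ∘ₗ τ s = f) → f = 0) : False := by
  have hodd : Odd (Fintype.card F) := by rw [hF]; decide
  -- the map `y`
  have hy : ∀ v ∈ XX τ, τ w v - v ∈ WW τ ∧ PP τ (τ w v - v) = 0 := by
    intro v hvX
    refine ⟨sub_mem (w_mem (hXW hvX)) (hXW hvX), ?_⟩
    rw [map_sub, PP_w hodd hXW hc hv hvX, PP_of_mem hodd hvX, sub_self]
  let p : WW τ →ₗ[k] V := (PP τ) ∘ₗ (WW τ).subtype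
  have hp : LinearMap.range p = XX τ := by
    apply le_antisymm
    · rintro _ ⟨v, rfl⟩
      exact PP_mem _
    · intro v hvX
      exact ⟨⟨v, hXW hvX⟩, PP_of_mem hodd hvX⟩
  have hker : finrank k (LinearMap.ker p) = 4 := by
    have := LinearMap.finrank_range_add_finrank_ker p
    rw [hp, hX, hW] at this
    omega
  let y : XX τ →ₗ[k] LinearMap.ker p :=
    { toFun := fun v => ⟨⟨τ w v - v, (hy v v.2).1⟩, (hy v v.2).2⟩
      map_add' := fun a b => by
        apply Subtype.ext
        apply Subtype.ext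
        show τ w ((a : V) + b) - ((a : V) + b) = (τ w a - a) + (τ w b - b)
        rw [map_add]
        abel
      map_smul' := fun c a => by
        apply Subtype.ext
        apply Subtype.ext
        show τ w (c • (a : V)) - (c • (a : V)) = c • (τ w a - a)
        rw [map_smul, smul_sub] }
  have hyi : Function.Injective y := by
    rw [← LinearMap.ker_eq_bot, LinearMap.ker_eq_bot']
    intro v hv0
    have h1 : τ w v - v = 0 := congrArg (fun z : LinearMap.ker p => ((z : WW τ) : V)) hv0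
    exact Subtype.ext (hv v (fix_all v.2 (hXW v.2) (sub_eq_zero.1 h1)))
  have hys : Function.Surjective y :=
    (LinearMap.injective_iff_surjective_of_finrank_eq_finrank (by rw [hX, hker])).1 hyi
  -- `w` is trivial on the kernel
  have hwk : ∀ v ∈ WW τ, PP τ v = 0 → τ w v = v := by
    intro v hvW hvP
    obtain ⟨x, hx⟩ := hys ⟨⟨v, hvW⟩, hvP⟩
    have h1 : τ w x - x = v := congrArg (fun z : LinearMap.ker p => ((z : WW τ) : V)) hx
    rw [← h1, map_sub, ← End.mul_apply, ← map_mul, w_w, hc, End.one_apply]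
    have h2 := add_self k (τ w (x : V) - x)
    have h3 : (x : V) - τ w x = -(τ w (x : V) - x) := by abel
    rw [h3]
    exact neg_eq_of_add_eq_zero_left h2
  -- a functional
  have hne : ∃ x : V, x ∈ XX τ ∧ x ≠ 0 := by
    have : Nontrivial (XX τ) := Module.nontrivial_of_finrank_pos (R := k) (by rw [hX]; norm_num)
    obtain ⟨x, hx⟩ := exists_ne (0 : XX τ)
    exact ⟨x, x.2, fun h => hx (Subtype.ext h)⟩
  obtain ⟨x, hxX, hx0⟩ := hne
  have h1 : ∃ l : Dual k V, l x ≠ 0 := by
    by_contra hcon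
    push Not at hcon
    exact hx0 ((Module.forall_dual_apply_eq_zero_iff k x).1 hcon)
  obtain ⟨l, hl⟩ := h1
  have hu : ∀ t : F, (l ∘ₗ PP τ) ∘ₗ τ (u t) = l ∘ₗ PP τ := fun t => LinearMap.ext fun v => congrArg l (PP_u t v)
  have hh : ∀ a : Fˣ, (l ∘ₗ PP τ) ∘ₗ τ (h a) = l ∘ₗ PP τ := fun a => LinearMap.ext fun v => congrArg l (PP_h hXW a v)
  have hwW : ∀ v ∈ WW τ, l (PP τ (τ w v)) = l (PP τ v) := by
    intro v hvW
    have h2 : v = PP τ v + (v - PP τ v) := by abel
    have h3 : PP τ (v - PP τ v) = 0 := by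
      rw [map_sub, PP_of_mem hodd (PP_mem v), sub_self]
    have h4 : τ w (v - PP τ v) = v - PP τ v := hwk _ (sub_mem hvW (hXW (PP_mem v))) h3
    conv_lhs => rw [h2]
    rw [map_add, h4, map_add, PP_w hodd hXW hc hv (PP_mem v), h3, add_zero]
  obtain ⟨ζ, hζ⟩ := IsCyclic.exists_generator (α := Fˣ)
  have hζ26 : ζ ^ 26 = 1 := by
    have h2 : Fintype.card Fˣ = 26 := by rw [Fintype.card_units, hF]
    rw [← h2, pow_card_eq_one]
  have hζ13 : ζ ^ 13 = -1 := by
    have h2 : (ζ ^ 13) ^ 2 = 1 := by rw [← pow_mul]; exact hζ26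
    have h3 : ((ζ ^ 13 : Fˣ) : F) * ((ζ ^ 13 : Fˣ) : F) = 1 := by rw [← Units.val_mul, ← pow_two, h2, Units.val_one]
    rcases mul_self_eq_one_iff.1 h3 with h4 | h4
    · exfalso
      have h5 : ζ ^ 13 = 1 := Units.ext h4
      have h6 := orderOf_dvd_of_pow_eq_one h5
      rw [orderOf_eq_card_of_forall_mem_zpowers hζ, Nat.card_eq_fintype_card, Fintype.card_units, hF] at h6
      norm_num at h6
    · exact Units.ext (by rw [h4]; simp)
  have hNW : ∀ v, ∑ j ∈ Finset.range 13, τ (h (ζ ^ j)) v ∈ WW τ := by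
    intro v
    have h2 : τ (h ζ) (∑ j ∈ Finset.range 13, τ (h (ζ ^ j)) v) = ∑ j ∈ Finset.range 13, τ (h (ζ ^ j)) v := by
      rw [map_sum]
      have h3 : ∀ j, τ (h ζ) (τ (h (ζ ^ j)) v) = τ (h (ζ ^ (j + 1))) v := by
        intro j
        rw [← End.mul_apply, ← map_mul, ← h_mul, ← pow_succ']
      rw [Finset.sum_congr rfl fun j _ => h3 j]
      have h4 := Finset.sum_range_succ (fun j => τ (h (ζ ^ j)) v) 13
      have h5 := Finset.sum_range_succ' (fun j => τ (h (ζ ^ j)) v) 13
      rw [h4] at h5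
      rw [hζ13, hc, pow_zero, h_one, map_one] at h5
      exact (add_right_cancel h5).symm
    have h6 : ∀ n : ℕ, τ (h (ζ ^ n)) (∑ j ∈ Finset.range 13, τ (h (ζ ^ j)) v) =
        ∑ j ∈ Finset.range 13, τ (h (ζ ^ j)) v := by
      intro n
      induction n with
      | zero => rw [pow_zero, h_one, map_one, End.one_apply]
      | succ n ih =>
        rw [pow_succ, h_mul, map_mul, End.mul_apply, h2, ih]
    intro a
    obtain ⟨n, rfl⟩ := (isOfFinOrder_of_finite ζ).mem_powers_iff_mem_zpowers.2 (hζ a)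
    exact h6 n
  have hww : (l ∘ₗ PP τ) ∘ₗ τ w = l ∘ₗ PP τ := by
    refine LinearMap.ext fun v => ?_
    have h2 : ∀ v, l (PP τ (∑ j ∈ Finset.range 13, τ (h (ζ ^ j)) v)) = l (PP τ v) := by
      intro v
      rw [map_sum, map_sum, Finset.sum_congr rfl fun j _ => congrArg l (PP_h hXW (ζ ^ j) v), Finset.sum_const,
        Finset.card_range]
      exact odd_nsmul k (by decide) _
    have h3 : ∀ v, τ w (∑ j ∈ Finset.range 13, τ (h (ζ ^ j)) v) =
        ∑ j ∈ Finset.range 13, τ (h (ζ⁻¹ ^ j)) (τ w v) := by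
      intro v
      rw [map_sum]
      refine Finset.sum_congr rfl fun j _ => ?_
      rw [← End.mul_apply, ← End.mul_apply, ← map_mul, ← map_mul, h_w, inv_pow, inv_inv]
    have h4 : ∀ v, l (PP τ (∑ j ∈ Finset.range 13, τ (h (ζ⁻¹ ^ j)) v)) = l (PP τ v) := by
      intro v
      rw [map_sum, map_sum, Finset.sum_congr rfl fun j _ => congrArg l (PP_h hXW (ζ⁻¹ ^ j) v), Finset.sum_const,
        Finset.card_range]
      exact odd_nsmul k (by decide) _
    show l (PP τ (τ w v)) = l (PP τ v)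
    rw [← h4 (τ w v), ← h3, hwW _ (hNW v), h2]
  have h2 := hf (l ∘ₗ PP τ) (fun_all hu hh hww)
  have h3 : l (PP τ x) = 0 := LinearMap.congr_fun h2 x
  rw [PP_of_mem hodd hxX] at h3
  exact hl h3

end Cfsg.Agent.H943.E7V.L27M
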