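import Cfsg.Agent.H943.E7V.Rows
import Cfsg.Agent.H943.E7V.L27M
import Cfsg.Agent.H943.PSLHom

/-!
# Row of S5935: `PSL(2, 27)`
-/

set_option autoImplicit false
set_option linter.unusedSectionVars false

namespace Cfsg.Agent.H943.E7V.L27

open Cfsg IsLocalRing Module Cfsg.Agent.H657 Cfsg.Agent.H943.SL2Rel Cfsg.Agent.H943.E7V.L27M
  Cfsg.Agent.H943.E7V.Scott

section elts

variable {F : Type*} [Field F] [Fintype F]

/-- the projection -/
def q (F : Type*) [Field F] : Matrix.SpecialLinearGroup (Fin 2) F →* Matrix.ProjectiveSpecialLinearGroup (Fin 2) F :=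
  QuotientGroup.mk' _

theorem q_eq_one {g : Matrix.SpecialLinearGroup (Fin 2) F} :
    q F g = 1 ↔ g ∈ Subgroup.center (Matrix.SpecialLinearGroup (Fin 2) F) := QuotientGroup.eq_one_iff g

theorem q_h_neg_one : q F (h (-1)) = 1 := q_eq_one.2 (PSLHom.h_mem_center.2 (by simp))

theorem three_zero (hF : Fintype.card F = 27) : (3 : F) = 0 := by
  have h1 : ((Fintype.card F : ℕ) : F) = 0 := Nat.cast_card_eq_zero F
  rw [hF] at h1
  have h2 : (3 : F) ^ 3 = 0 := by
    have : ((27 : ℕ) : F) = (3 : F) ^ 3 := by push_cast; norm_num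
    rw [← this]; exact h1
  exact pow_eq_zero_iff (by norm_num) |>.1 h2

/-- entries of central elements -/
theorem center_entries {g : Matrix.SpecialLinearGroup (Fin 2) F}
    (hg : g ∈ Subgroup.center (Matrix.SpecialLinearGroup (Fin 2) F)) : g.1 0 1 = 0 ∧ g.1 0 0 = g.1 1 1 := by
  rw [Matrix.SpecialLinearGroup.mem_center_iff] at hg
  obtain ⟨r, -, hr⟩ := hg
  rw [← hr]
  simp [Matrix.scalar_apply]

theorem order_u (hF : Fintype.card F = 27) {t : F} (ht : t ≠ 0) : orderOf (q F (u t)) = 3 := by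
  have : Fact (Nat.Prime 3) := ⟨by norm_num⟩
  apply orderOf_eq_prime
  · have h1 : u t ^ 3 = 1 := by
      rw [pow_succ, pow_two, ← u_add, ← u_add, ← u_zero]
      congr 1
      have := three_zero hF
      linear_combination t * this
    rw [← map_pow, h1, map_one]
  · intro h1
    have h2 := (center_entries (q_eq_one.1 h1)).1
    exact ht (by simpa [u] using h2)

theorem pow_13 (hF : Fintype.card F = 27) {t : F} (ht : t ≠ 0) : t ^ 13 = 1 ∨ t ^ 13 = -1 := by
  have h1 : t ^ 26 = 1 := by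
    have := FiniteField.pow_card_sub_one_eq_one t ht
    rwa [hF] at this
  have h2 : t ^ 13 * t ^ 13 = 1 := by rw [← pow_add]; exact h1
  exact mul_self_eq_one_iff.1 h2

theorem order_h (hF : Fintype.card F = 27) {a : Fˣ} (ha : a ^ 2 ≠ 1) : orderOf (q F (h a)) = 13 := by
  have : Fact (Nat.Prime 13) := ⟨by norm_num⟩
  apply orderOf_eq_prime
  · rw [← map_pow, ← h_pow]
    have h1 : a ^ 13 = 1 ∨ a ^ 13 = -1 := by
      rcases pow_13 hF a.ne_zero with h1 | h1
      · left; exact Units.ext (by simpa using h1)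
      · right; exact Units.ext (by simpa using h1)
    rcases h1 with h1 | h1
    · rw [h1, h_one, map_one]
    · rw [h1, q_h_neg_one]
  · intro h1
    exact ha (PSLHom.h_mem_center.1 (q_eq_one.1 h1))

end elts

variable {F : Type*} [Field F] [Fintype F] [DecidableEq F] {M : Ideal AlgInt} {V : ValuationSubring ℂ}
  {σ : Representation (ResidueField V) (Matrix.ProjectiveSpecialLinearGroup (Fin 2) F) (Fin 56 → ResidueField V)}

theorem h_u_h (a : Fˣ) (t : F) : h a * u t * (h a)⁻¹ = u ((a : F) ^ 2 * t) := by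
  rw [h_u, mul_assoc, mul_inv_cancel, mul_one]

theorem bc_u (hF : Fintype.card F = 27) (H : Vals σ) {t : F} (ht : t ≠ 0) :
    bc 2 σ (q F (u t)) = bc 2 σ (q F (u 1)) := by
  have key : ∀ s : F, s ≠ 0 → bc 2 σ (q F (u (s ^ 2))) = bc 2 σ (q F (u 1)) := by
    intro s hs
    have h1 := h_u_h (Units.mk0 s hs) 1
    rw [Units.val_mk0, mul_one] at h1
    rw [← h1, map_mul, map_mul, map_inv]
    exact bc_conj 2 σ _ _
  rcases pow_13 hF ht with h1 | h1
  · have h2 : t = (t ^ 7) ^ 2 := by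
      rw [← pow_mul]
      calc t = t ^ 13 * t := by rw [h1, one_mul]
        _ = t ^ (7 * 2) := by ring
    rw [h2]
    exact key _ (pow_ne_zero _ ht)
  · have h2 : t = -((t ^ 7) ^ 2) := by
      rw [← pow_mul]
      calc t = -(t ^ 13 * t) := by rw [h1, neg_one_mul, neg_neg]
        _ = -(t ^ (7 * 2)) := by ring
    rw [h2, u_neg, map_inv, H.three_inv _ (order_u hF (pow_ne_zero _ (pow_ne_zero _ ht)))]
    exact key _ (pow_ne_zero _ ht)

/-- the root group -/
def phi (F : Type*) [Field F] : Multiplicative F →* Matrix.ProjectiveSpecialLinearGroup (Fin 2) F where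
  toFun t := q F (u t.toAdd)
  map_one' := by rw [toAdd_one, u_zero, map_one]
  map_mul' a b := by rw [toAdd_mul, u_add, map_mul]

theorem value_u (hM : IsPModular 2 M) (hV : Above M V) (hF : Fintype.card F = 27) (H : Vals σ) :
    bc 2 σ (q F (u 1)) = 2 ∧ finrank (ResidueField V) (XX (σ.comp (q F))) = 4 := by
  have h1 := H597.BrInv.C hM hV (P := Multiplicative F) (by
    rw [Fintype.card_multiplicative, hF]; decide) (σ.comp (phi F))
  have h2 : Representation.invariants (σ.comp (phi F)) = XX (σ.comp (q F)) := by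
    ext v
    rw [Representation.mem_invariants]
    exact Iff.rfl
  rw [h2, Fintype.card_multiplicative, hF] at h1
  have h3 : ∑ g : Multiplicative F, bc 2 (σ.comp (phi F)) g = ∑ t : F, bc 2 σ (q F (u t)) :=
    Fintype.sum_equiv Multiplicative.toAdd _ _ fun t => rfl
  rw [h3, ← Finset.add_sum_erase _ _ (Finset.mem_univ (0 : F)), u_zero, map_one, H.one,
    Finset.sum_congr rfl fun t ht => bc_u hF H (Finset.ne_of_mem_erase ht), Finset.sum_const,
    Finset.card_erase_of_mem (Finset.mem_univ _), Finset.card_univ, hF, nsmul_eq_mul] at h1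
  have key : ∀ z : ℤ, bc 2 σ (q F (u 1)) = z → (z = 2 ∨ z = 20 ∨ z = -7 ∨ z = -25) →
      z = 2 ∧ finrank (ResidueField V) (XX (σ.comp (q F))) = 4 := by
    intro z hz hz'
    rw [hz] at h1
    have h4 : (56 : ℤ) + 26 * z = 27 * (finrank (ResidueField V) (XX (σ.comp (q F))) : ℤ) := by
      exact_mod_cast h1
    omega
  rcases H.three _ (order_u hF one_ne_zero) with h4 | h4 | h4 | h4
  · exact ⟨h4, (key 2 (by rw [h4]; norm_num) (by omega)).2⟩
  · exact absurd (key 20 (by rw [h4]; norm_num) (by omega)).1 (by norm_num)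
  · exact absurd (key (-7) (by rw [h4]; norm_num) (by omega)).1 (by norm_num)
  · exact absurd (key (-25) (by rw [h4]; norm_num) (by omega)).1 (by norm_num)

theorem bc_hu (hF : Fintype.card F = 27) (H : Vals σ) {a : Fˣ} (ha : a ^ 2 ≠ 1) (t : F) :
    bc 2 σ (q F (h a * u t)) = 4 := by
  have ha0 : (a : F) ≠ 0 := a.ne_zero
  have ha2 : (a : F) ^ 2 ≠ 1 := fun h => ha (Units.ext (by simpa using h))
  have h0 : 1 - (a : F) ^ 2 ≠ 0 := sub_ne_zero.2 (Ne.symm ha2)
  have h1 : h a * u t = u ((a : F) ^ 2 * t / (1 - (a : F) ^ 2)) * h a * (u ((a : F) ^ 2 * t / (1 - (a : F) ^ 2)))⁻¹ := by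
    rw [← u_neg, mul_assoc, h_u, h_u, ← mul_assoc, ← u_add]
    congr 2
    field_simp
    ring
  rw [h1, map_mul, map_mul, map_inv, bc_conj]
  exact H.thirteen _ (order_h hF ha)

/-- the Borel subgroup -/
def BB (F : Type*) [Field F] : Subgroup (Matrix.ProjectiveSpecialLinearGroup (Fin 2) F) where
  carrier := {x | ∃ (a : Fˣ) (t : F), x = q F (h a * u t)}
  one_mem' := ⟨1, 0, by rw [h_one, u_zero, mul_one, map_one]⟩
  mul_mem' := by
    rintro _ _ ⟨a, t, rfl⟩ ⟨b, s, rfl⟩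
    refine ⟨a * b, (b : F)⁻¹ ^ 2 * t + s, ?_⟩
    rw [← map_mul]
    congr 1
    have h1 : u t * h b = h b * u ((b : F)⁻¹ ^ 2 * t) := by
      rw [h_u]
      congr 2
      have := b.ne_zero
      field_simp
    rw [mul_assoc, ← mul_assoc (u t), h1, h_mul, u_add]
    simp only [mul_assoc]
  inv_mem' := by
    rintro _ ⟨a, t, rfl⟩
    refine ⟨a⁻¹, -((a : F) ^ 2 * t), ?_⟩
    rw [← map_inv, mul_inv_rev, ← u_neg, ← h_inv]
    congr 1
    rw [h_u]
    congr 2
    have := a.ne_zero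
    push_cast
    field_simp

theorem invariants_BB : Representation.invariants (σ.comp (BB F).subtype) =
    XX (σ.comp (q F)) ⊓ WW (σ.comp (q F)) := by
  ext v
  rw [Representation.mem_invariants, Submodule.mem_inf]
  constructor
  · intro hv
    refine ⟨fun t => ?_, fun a => ?_⟩
    · exact hv ⟨q F (u t), 1, t, by rw [h_one, one_mul]⟩
    · exact hv ⟨q F (h a), a, 0, by rw [u_zero, mul_one]⟩
  · rintro ⟨h1, h2⟩ ⟨_, a, t, rfl⟩
    show σ (q F (h a * u t)) v = v
    have h3 : σ (q F (u t)) v = v := h1 t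
    have h4 : σ (q F (h a)) v = v := h2 a
    rw [map_mul, map_mul, End.mul_apply, h3, h4]

/-- the parametrization of the Borel subgroup -/
def par (ζ : Fˣ) (x : Fin 13 × F) : ↥(BB F) := ⟨q F (h (ζ ^ (x.1 : ℕ)) * u x.2), _, _, rfl⟩

theorem sq_ne (hF : Fintype.card F = 27) {ζ : Fˣ} (hζ : ∀ a, a ∈ Subgroup.zpowers ζ) {i j : ℕ} (hi : i < 13)
    (hj : j < 13) (h1 : (ζ ^ i) ^ 2 = (ζ ^ j) ^ 2) : i = j := by
  have ho : orderOf ζ = 26 := by
    rw [orderOf_eq_card_of_forall_mem_zpowers hζ, Nat.card_eq_fintype_card, Fintype.card_units, hF]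
  rw [← pow_mul, ← pow_mul] at h1
  have := pow_injOn_Iio_orderOf (x := ζ) (show i * 2 ∈ Set.Iio (orderOf ζ) by rw [ho, Set.mem_Iio]; omega)
    (show j * 2 ∈ Set.Iio (orderOf ζ) by rw [ho, Set.mem_Iio]; omega) h1
  omega

theorem zeta_13 (hF : Fintype.card F = 27) {ζ : Fˣ} (hζ : ∀ a, a ∈ Subgroup.zpowers ζ) : ζ ^ 13 = -1 := by
  rcases pow_13 hF ζ.ne_zero with h1 | h1
  · exfalso
    have h5 : ζ ^ 13 = 1 := Units.ext (by simpa using h1)
    have h6 := orderOf_dvd_of_pow_eq_one h5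
    rw [orderOf_eq_card_of_forall_mem_zpowers hζ, Nat.card_eq_fintype_card, Fintype.card_units, hF] at h6
    norm_num at h6
  · exact Units.ext (by simpa using h1)

theorem par_bijective (hF : Fintype.card F = 27) {ζ : Fˣ} (hζ : ∀ a, a ∈ Subgroup.zpowers ζ) :
    Function.Bijective (par ζ) := by
  constructor
  · rintro ⟨i, t⟩ ⟨j, s⟩ hij
    have h1 : q F (h (ζ ^ (i : ℕ)) * u t) = q F (h (ζ ^ (j : ℕ)) * u s) := congrArg Subtype.val hij
    have h2 : q F ((h (ζ ^ (i : ℕ)) * u t) * (h (ζ ^ (j : ℕ)) * u s)⁻¹) = 1 := by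
      rw [map_mul, map_inv, h1, mul_inv_cancel]
    obtain ⟨h3, h4⟩ := center_entries (q_eq_one.1 h2)
    have h5 : (h (ζ ^ (i : ℕ)) * u t) * (h (ζ ^ (j : ℕ)) * u s)⁻¹ =
        h (ζ ^ (i : ℕ)) * u (t - s) * h (ζ ^ (j : ℕ))⁻¹ := by
      rw [mul_inv_rev, ← u_neg, ← h_inv, sub_eq_add_neg, u_add]
      simp only [mul_assoc]
    rw [h5] at h3 h4
    have h6 : (h (ζ ^ (i : ℕ)) * u (t - s) * h (ζ ^ (j : ℕ))⁻¹).1 =
        !![((ζ ^ (i : ℕ) : Fˣ) : F) * ((ζ ^ (j : ℕ) : Fˣ) : F)⁻¹, ((ζ ^ (i : ℕ) : Fˣ) : F) * (t - s) * ((ζ ^ (j : ℕ) : Fˣ) : F);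
          0, ((ζ ^ (i : ℕ) : Fˣ) : F)⁻¹ * ((ζ ^ (j : ℕ) : Fˣ) : F)] := by
      show !![((ζ ^ (i : ℕ) : Fˣ) : F), 0; 0, ((ζ ^ (i : ℕ) : Fˣ) : F)⁻¹] * !![1, t - s; 0, 1] *
        !![((((ζ ^ (j : ℕ))⁻¹ : Fˣ)) : F), 0; 0, ((((ζ ^ (j : ℕ))⁻¹ : Fˣ)) : F)⁻¹] = _
      rw [Matrix.mul_fin_two, Matrix.mul_fin_two]
      simp
    rw [h6] at h3 h4
    have hi0 : ((ζ ^ (i : ℕ) : Fˣ) : F) ≠ 0 := Units.ne_zero _
    have hj0 : ((ζ ^ (j : ℕ) : Fˣ) : F) ≠ 0 := Units.ne_zero _
    have h7 : t = s := by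
      have h8 : ((ζ ^ (i : ℕ) : Fˣ) : F) * (t - s) * ((ζ ^ (j : ℕ) : Fˣ) : F) = 0 := h3
      rcases mul_eq_zero.1 h8 with h8 | h8
      · rcases mul_eq_zero.1 h8 with h8 | h8
        · exact absurd h8 hi0
        · exact sub_eq_zero.1 h8
      · exact absurd h8 hj0
    have h8 : ((ζ ^ (i : ℕ) : Fˣ) : F) * ((ζ ^ (j : ℕ) : Fˣ) : F)⁻¹ = ((ζ ^ (i : ℕ) : Fˣ) : F)⁻¹ * ((ζ ^ (j : ℕ) : Fˣ) : F) := h4
    have h9 : (ζ ^ (i : ℕ)) ^ 2 = (ζ ^ (j : ℕ)) ^ 2 := by
      apply Units.ext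
      rw [Units.val_pow_eq_pow_val (ζ ^ (i : ℕ)) 2, Units.val_pow_eq_pow_val (ζ ^ (j : ℕ)) 2]
      field_simp at h8
      exact h8
    have h10 := sq_ne hF hζ i.2 j.2 h9
    exact Prod.ext (Fin.ext h10) h7
  · rintro ⟨_, a, t, rfl⟩
    obtain ⟨n, hn⟩ := (isOfFinOrder_of_finite ζ).mem_powers_iff_mem_zpowers.2 (hζ a)
    have hn' : ζ ^ n = a := hn
    refine ⟨(⟨n % 13, Nat.mod_lt _ (by norm_num)⟩, t), Subtype.ext ?_⟩
    show q F (h (ζ ^ (n % 13)) * u t) = q F (h a * u t)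
    rw [map_mul, map_mul]
    congr 1
    have h1 : ∀ m : ℕ, q F (h ((-1 : Fˣ) ^ m)) = 1 := by
      intro m
      rw [h_pow, map_pow, q_h_neg_one, one_pow]
    rw [← hn', ← Nat.div_add_mod n 13, pow_add, pow_mul, zeta_13 hF hζ, h_mul, map_mul, h1, one_mul, Nat.add_mod,
      Nat.mul_mod_right, zero_add, Nat.mod_mod, Nat.mod_mod]

theorem le_WW (hM : IsPModular 2 M) (hV : Above M V) (hF : Fintype.card F = 27) (H : Vals σ) :
    XX (σ.comp (q F)) ≤ WW (σ.comp (q F)) := by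
  classical
  obtain ⟨hv, hX⟩ := value_u hM hV hF H
  obtain ⟨ζ, hζ⟩ := IsCyclic.exists_generator (α := Fˣ)
  have hbij := par_bijective hF hζ
  let _ : Fintype ↥(BB F) := Fintype.ofBijective _ hbij
  have hcard : Fintype.card ↥(BB F) = 351 := by
    rw [← Fintype.card_of_bijective hbij, Fintype.card_prod, Fintype.card_fin, hF]
  have h1 := H597.BrInv.C hM hV (P := ↥(BB F)) (by rw [hcard]; decide) (σ.comp (BB F).subtype)
  rw [invariants_BB, hcard] at h1
  have h2 : ∑ g : ↥(BB F), bc 2 (σ.comp (BB F).subtype) g = ∑ x : Fin 13 × F, bc 2 σ (q F (h (ζ ^ (x.1 : ℕ)) * u x.2)) :=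
    (Function.Bijective.sum_comp hbij (fun g : ↥(BB F) => bc 2 σ (g : Matrix.ProjectiveSpecialLinearGroup (Fin 2) F))).symm
  have h3 : ∀ j : Fin 13, ∑ t : F, bc 2 σ (q F (h (ζ ^ (j : ℕ)) * u t)) = 108 := by
    intro j
    by_cases hj : j = 0
    · subst hj
      simp only [Fin.val_zero, pow_zero, h_one, one_mul]
      rw [← Finset.add_sum_erase _ _ (Finset.mem_univ (0 : F)), u_zero, map_one, H.one,
        Finset.sum_congr rfl fun t ht => (bc_u hF H (Finset.ne_of_mem_erase ht)).trans hv, Finset.sum_const,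
        Finset.card_erase_of_mem (Finset.mem_univ _), Finset.card_univ, hF, nsmul_eq_mul]
      norm_num
    · have hj2 : (ζ ^ (j : ℕ)) ^ 2 ≠ 1 := by
        intro h4
        have h5 := sq_ne hF hζ (i := j) (j := 0) j.2 (by norm_num) (by rw [h4]; simp)
        exact hj (Fin.ext h5)
      rw [Finset.sum_congr rfl fun t _ => bc_hu hF H hj2 t, Finset.sum_const, Finset.card_univ, hF, nsmul_eq_mul]
      norm_num
  rw [h2, Fintype.sum_prod_type, Finset.sum_congr rfl fun j _ => h3 j, Finset.sum_const, Finset.card_univ,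
    Fintype.card_fin, nsmul_eq_mul] at h1
  have h4 : (13 * 108 : ℤ) = 351 * (finrank (ResidueField V) ↥(XX (σ.comp (q F)) ⊓ WW (σ.comp (q F))) : ℤ) := by
    exact_mod_cast h1
  have h5 : finrank (ResidueField V) ↥(XX (σ.comp (q F)) ⊓ WW (σ.comp (q F))) = 4 := by omega
  have h6 : XX (σ.comp (q F)) ⊓ WW (σ.comp (q F)) = XX (σ.comp (q F)) :=
    Submodule.eq_of_le_of_finrank_eq inf_le_left (by rw [h5, hX])
  exact inf_eq_left.1 h6

theorem finrank_WW (hM : IsPModular 2 M) (hV : Above M V) (hF : Fintype.card F = 27) (H : Vals σ) :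
    finrank (ResidueField V) (WW (σ.comp (q F))) = 8 := by
  obtain ⟨ζ, hζ⟩ := IsCyclic.exists_generator (α := Fˣ)
  have hz2 : ζ ^ 2 ≠ 1 := by
    intro h4
    have h5 := sq_ne hF hζ (i := 1) (j := 0) (by norm_num) (by norm_num) (by rw [pow_one, h4]; simp)
    omega
  have h1 := finrank_thirteen hM hV H (order_h hF hz2)
  have h2 : WW (σ.comp (q F)) = fx σ (q F (h ζ)) := by
    ext v
    rw [mem_fx]
    constructor
    · intro hv
      exact hv ζ
    · intro hv a
      obtain ⟨n, rfl⟩ := (isOfFinOrder_of_finite ζ).mem_powers_iff_mem_zpowers.2 (hζ a)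
      show σ (q F (h (ζ ^ n))) v = v
      induction n with
      | zero => rw [pow_zero, h_one, map_one, map_one, End.one_apply]
      | succ n ih =>
        rw [pow_succ, h_mul, map_mul, map_mul, End.mul_apply, hv, ih]
  rw [h2, h1]

/-- **`PSL(2, 27)`**: fixed vectors or functionals. -/
theorem not_admF (hF : Fintype.card F = 27) : ¬ AdmF (Matrix.ProjectiveSpecialLinearGroup (Fin 2) F) := by
  rintro ⟨M, V, hM, hV, σ, H, h1, h2⟩
  have : Fact (Nat.Prime 2) := ⟨Nat.prime_two⟩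
  have : CharP (ResidueField V) 2 := hV.charP hM
  refine L27M.main (τ := σ.comp (q F)) hF ?_ (value_u hM hV hF H).2 (le_WW hM hV hF H) (finrank_WW hM hV hF H)
    (fun v hv => h1 v fun s => ?_) (fun f hf => h2 f fun s => ?_)
  · show σ (q F (h (-1))) = 1
    rw [q_h_neg_one, map_one]
  · obtain ⟨g, rfl⟩ := QuotientGroup.mk'_surjective _ s
    exact hv g
  · obtain ⟨g, rfl⟩ := QuotientGroup.mk'_surjective _ s
    exact hf g

/-- **No maximal subgroup of `E₇(2)` has `F* ≅ PSL(2, 27)`.** -/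
theorem no_psl227 {F : Type*} [Field F] [Fintype F] (hF : Fintype.card F = 27)
    (H : Subgroup ↥(Cfsg.Lie.chevE7.group (ZMod 2))) (hH : IsCoatom H)
    (e : ↥(generalizedFittingSubgroup ↥H) ≃* Matrix.ProjectiveSpecialLinearGroup (Fin 2) F) : False := by
  classical
  have := Rows.finite_psl (F := F) 2
  have := Rows.simple_two (F := F) (by omega)
  have hc : Nat.card (Matrix.ProjectiveSpecialLinearGroup (Fin 2) F) = 9828 := by
    have h := S0243.result (F := F) hF 2 le_rfl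
    rw [Fin.prod_univ_two] at h
    generalize Nat.card (Matrix.ProjectiveSpecialLinearGroup (Fin 2) F) = c at h ⊢
    norm_num at h
    omega
  have ha := Rows.card_aut (F := F) (n := 2) (p := 3) (f := 3) (by norm_num) (by norm_num) (by rw [hF]; norm_num) le_rfl
    (by norm_num)
  have ha' : Nat.card (MulAut (Matrix.ProjectiveSpecialLinearGroup (Fin 2) F)) =
      Nat.card (Matrix.ProjectiveSpecialLinearGroup (Fin 2) F) * 6 := ha.trans (congrArg _ (by norm_num))
  exact not_admF hF (Max.admF_three (S := Matrix.ProjectiveSpecialLinearGroup (Fin 2) F) (m := 6) (k := 1)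
    (Rows.not_comm (by rw [hc]; norm_num)) ha' (by norm_num) (by rw [hc]; norm_num) H hH e)

end Cfsg.Agent.H943.E7V.L27
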