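import Mathlib

/-!
# Maximal subgroups do not fix vectors of small modules

`E` a finite simple group acting on a finite elementary abelian 2-group `V` without fixed points, `H` a maximal subgroup,
`S` a normal subgroup of `H` of index dividing `3 * 2 ^ k` fixing a vector `v ≠ 0`: then `|E| ≤ |H| |V| ^ 2` (`large`).
-/

set_option autoImplicit false
set_option linter.unusedSectionVars false

namespace Cfsg.Agent.H943.E7V.Large

open MulAction Pointwise

variable {E : Type*} [Group E] [Finite E] {V : Type*} [AddCommGroup V] [Finite V] [DistribMulAction E V]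

/-- the vectors fixed by `S` -/
def fixW {H : Subgroup E} (S : Subgroup H) (V : Type*) [AddCommGroup V] [DistribMulAction E V] : AddSubgroup V where
  carrier := {v | ∀ s ∈ S, (s : E) • v = v}
  zero_mem' s _ := smul_zero _
  add_mem' ha hb s hs := by rw [smul_add, ha s hs, hb s hs]
  neg_mem' ha s hs := by rw [smul_neg, ha s hs]

theorem mem_fixW {H : Subgroup E} {S : Subgroup H} {v : V} : v ∈ fixW S V ↔ ∀ s ∈ S, (s : E) • v = v := Iff.rfl

/-- the action of `H` on the vectors fixed by `S` -/
@[reducible] def actW {H : Subgroup E} (S : Subgroup H) [S.Normal] : MulAction ↥H ↥(fixW S V) where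
  smul h w := ⟨(h : E) • (w : V), fun s hs => by
    have h1 : h⁻¹ * s * h ∈ S := by
      have := Subgroup.Normal.conj_mem (inferInstance : S.Normal) s hs h⁻¹
      rwa [inv_inv] at this
    have h2 := w.2 _ h1
    have h3 : (s : E) * (h : E) = (h : E) * ((h⁻¹ * s * h : ↥H) : E) := by
      push_cast
      group
    rw [← mul_smul, h3, mul_smul, h2]⟩
  one_smul w := Subtype.ext (one_smul E (w : V))
  mul_smul a b w := Subtype.ext (mul_smul (a : E) (b : E) (w : V))

theorem card_le_of_fixed {H : Subgroup E} (hH : IsCoatom H) (hfix : ∀ v : V, (∀ g : E, g • v = v) → v = 0) {w : V}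
    (hw : w ≠ 0) (hHw : ∀ h ∈ H, h • w = w) : Nat.card E ≤ Nat.card H * Nat.card V := by
  have h1 : H ≤ stabilizer E w := fun h hh => hHw h hh
  have h2 : stabilizer E w ≠ ⊤ := by
    intro h
    refine hw (hfix w fun g => ?_)
    have : g ∈ stabilizer E w := by rw [h]; exact Subgroup.mem_top g
    exact this
  have h3 : stabilizer E w = H := by
    rcases hH.le_iff.1 h1 with h | h
    · exact absurd h h2
    · exact h
  have h4 := Subgroup.card_mul_index (stabilizer E w)
  rw [h3] at h4
  have h5 : H.index = Nat.card (orbit E w) := by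
    rw [← h3, index_stabilizer]; rfl
  rw [← h4, h5]
  exact Nat.mul_le_mul_left _ (Finite.card_subtype_le _)

/-- **Large stabilizers**, the case of a 2-group of outer automorphisms. -/
theorem large_two (h2 : ∀ v : V, v + v = 0)
    (hfix : ∀ v : V, (∀ g : E, g • v = v) → v = 0) {H : Subgroup E} (hH : IsCoatom H) (S : Subgroup H) [S.Normal]
    {k : ℕ} (hk : S.index ∣ 2 ^ k) {v : V} (hv : v ≠ 0) (hSv : ∀ s ∈ S, (s : E) • v = v) :
    Nat.card E ≤ Nat.card H * Nat.card V := by
  classical
  letI := actW (V := V) S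
  let P : Sylow 2 ↥H := default
  have hP2 : IsPGroup 2 ↥P := P.2
  have h2W : 2 ∣ Nat.card ↥(fixW S V) := by
    have h3 : addOrderOf (⟨v, hSv⟩ : ↥(fixW S V)) = 2 := by
      refine addOrderOf_eq_prime ?_ ?_
      · rw [two_nsmul]
        exact Subtype.ext (h2 v)
      · intro h
        exact hv (congrArg Subtype.val h)
    rw [← h3]
    exact addOrderOf_dvd_natCard _
  have h0 : (0 : ↥(fixW S V)) ∈ fixedPoints ↥P ↥(fixW S V) := by
    intro p
    exact Subtype.ext (smul_zero _)
  obtain ⟨w, hw, hw0⟩ := hP2.exists_fixed_point_of_prime_dvd_card_of_fixed_point ↥(fixW S V) h2W h0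
  have hPw : (P : Subgroup ↥H) ≤ stabilizer ↥H w := fun p hp => hw ⟨p, hp⟩
  have hSw : S ≤ stabilizer ↥H w := fun s hs => Subtype.ext (w.2 s hs)
  have hidx : (stabilizer ↥H w).index = 1 := by
    have h3 : (stabilizer ↥H w).index ∣ 2 ^ k := (Subgroup.index_dvd_of_le hSw).trans hk
    have h4 : (stabilizer ↥H w).index ∣ (P : Subgroup ↥H).index := Subgroup.index_dvd_of_le hPw
    have h5 : ¬ 2 ∣ (stabilizer ↥H w).index := fun h => P.not_dvd_index (h.trans h4)
    exact Nat.Coprime.eq_one_of_dvd
      (((Nat.Prime.coprime_iff_not_dvd Nat.prime_two).2 h5).symm.pow_right k) h3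
  have hw0' : (w : V) ≠ 0 := fun h => hw0 (Subtype.ext h).symm
  refine card_le_of_fixed hH hfix hw0' fun h hh => ?_
  have h3 : (⟨h, hh⟩ : ↥H) ∈ stabilizer ↥H w := by
    rw [Subgroup.index_eq_one.1 hidx]; exact Subgroup.mem_top _
  exact congrArg Subtype.val h3

/-- **Large stabilizers.** -/
theorem large [IsSimpleGroup E] (hE : 6 < Nat.card E) (h2 : ∀ v : V, v + v = 0)
    (hfix : ∀ v : V, (∀ g : E, g • v = v) → v = 0) {H : Subgroup E} (hH : IsCoatom H) (S : Subgroup H) [S.Normal]
    {k : ℕ} (hk : S.index ∣ 3 * 2 ^ k) {v : V} (hv : v ≠ 0) (hSv : ∀ s ∈ S, (s : E) • v = v) :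
    Nat.card E ≤ Nat.card H * Nat.card V ^ 2 := by
  classical
  have hV : 0 < Nat.card V := Nat.card_pos
  have hle : ∀ n : ℕ, n * Nat.card V ≤ n * Nat.card V ^ 2 := fun n =>
    Nat.mul_le_mul_left _ (by nlinarith)
  letI := actW (V := V) S
  let P : Sylow 2 ↥H := default
  have hP2 : IsPGroup 2 ↥P := P.2
  -- a vector fixed by a Sylow 2-subgroup
  have h2W : 2 ∣ Nat.card ↥(fixW S V) := by
    have h3 : addOrderOf (⟨v, hSv⟩ : ↥(fixW S V)) = 2 := by
      refine addOrderOf_eq_prime ?_ ?_
      · rw [two_nsmul]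
        exact Subtype.ext (h2 v)
      · intro h
        exact hv (congrArg Subtype.val h)
    rw [← h3]
    exact addOrderOf_dvd_natCard _
  have h0 : (0 : ↥(fixW S V)) ∈ fixedPoints ↥P ↥(fixW S V) := by
    intro p
    exact Subtype.ext (smul_zero _)
  obtain ⟨w, hw, hw0⟩ := hP2.exists_fixed_point_of_prime_dvd_card_of_fixed_point ↥(fixW S V) h2W h0
  have hPw : (P : Subgroup ↥H) ≤ stabilizer ↥H w := fun p hp => hw ⟨p, hp⟩
  have hSw : S ≤ stabilizer ↥H w := fun s hs => Subtype.ext (w.2 s hs)
  have hidx : (stabilizer ↥H w).index ∣ 3 := by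
    have h3 : (stabilizer ↥H w).index ∣ 3 * 2 ^ k := (Subgroup.index_dvd_of_le hSw).trans hk
    have h4 : (stabilizer ↥H w).index ∣ (P : Subgroup ↥H).index := Subgroup.index_dvd_of_le hPw
    have h5 : ¬ 2 ∣ (stabilizer ↥H w).index := fun h => P.not_dvd_index (h.trans h4)
    exact (Nat.Coprime.dvd_of_dvd_mul_right
      (((Nat.Prime.coprime_iff_not_dvd Nat.prime_two).2 h5).symm.pow_right k) h3)
  have hw0' : (w : V) ≠ 0 := fun h => hw0 (Subtype.ext h).symm
  by_cases hone : ∀ h ∈ H, h • (w : V) = w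
  · exact (card_le_of_fixed hH hfix hw0' hone).trans (hle _)
  have hthree : (stabilizer ↥H w).index = 3 := by
    rcases (Nat.dvd_prime Nat.prime_three).1 hidx with h | h
    · exfalso
      apply hone
      intro h' hh'
      have h3 : (⟨h', hh'⟩ : ↥H) ∈ stabilizer ↥H w := by
        rw [Subgroup.index_eq_one.1 h]; exact Subgroup.mem_top _
      exact congrArg Subtype.val h3
    · exact h
  -- the orbit
  let O : Set V := Set.range fun h : ↥H => (h : E) • (w : V)
  have hO3 : Nat.card ↥O = 3 := by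
    rw [← hthree, index_stabilizer]
    have h3 : O = Subtype.val '' (orbit ↥H w) := by
      ext x
      constructor
      · rintro ⟨h, rfl⟩
        exact ⟨h • w, ⟨h, rfl⟩, rfl⟩
      · rintro ⟨y, ⟨h, rfl⟩, rfl⟩
        exact ⟨h, rfl⟩
    rw [h3]
    exact Nat.card_image_of_injective Subtype.val_injective _
  have hOH : ∀ h ∈ H, ∀ x ∈ O, h • x ∈ O := by
    rintro h hh _ ⟨h', rfl⟩
    refine ⟨⟨h, hh⟩ * h', ?_⟩
    show ((⟨h, hh⟩ * h' : ↥H) : E) • (w : V) = h • (h' : E) • (w : V)
    rw [← mul_smul]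
    rfl
  have hwO : (w : V) ∈ O := ⟨1, one_smul E _⟩
  let F : Finset V := O.toFinite.toFinset
  have hF : ∀ x, x ∈ F ↔ x ∈ O := fun x => Set.Finite.mem_toFinset _
  have hF3 : F.card = 3 := by
    rw [← hO3, Nat.card_coe_set_eq, Set.ncard_eq_toFinset_card O O.toFinite]
  have hsum : ∀ h ∈ H, h • (∑ x ∈ F, x) = ∑ x ∈ F, x := by
    intro h hh
    rw [Finset.smul_sum]
    have himg : F.image (fun x => h • x) = F := by
      refine Finset.eq_of_subset_of_card_le ?_ ?_
      · intro y hy
        obtain ⟨x, hx, rfl⟩ := Finset.mem_image.1 hy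
        exact (hF _).2 (hOH h hh x ((hF x).1 hx))
      · rw [Finset.card_image_of_injective _ (MulAction.injective h)]
    conv_rhs => rw [← himg]
    rw [Finset.sum_image fun x _ y _ hxy => MulAction.injective h hxy]
  by_cases hs : ∑ x ∈ F, x = 0
  swap
  · exact (card_le_of_fixed hH hfix hs hsum).trans (hle _)
  -- the sum is zero
  have hHO : H ≤ stabilizer E O := by
    intro h hh
    rw [mem_stabilizer_iff]
    ext y
    rw [Set.mem_smul_set]
    constructor
    · rintro ⟨x, hx, rfl⟩
      exact hOH h hh x hx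
    · intro hy
      exact ⟨h⁻¹ • y, hOH _ (inv_mem hh) y hy, smul_inv_smul h y⟩
  have hO : ∀ {g : E}, g ∈ stabilizer E O → ∀ x ∈ O, g • x ∈ O := by
    intro g hg x hx
    rw [mem_stabilizer_iff] at hg
    rw [← hg]
    exact Set.smul_mem_smul_set hx
  have htop : stabilizer E O ≠ ⊤ := by
    intro h
    let A : SubMulAction E V := ⟨O, fun g {x} hx => hO (by rw [h]; exact Subgroup.mem_top g) x hx⟩
    let f : E →* Equiv.Perm ↥A := MulAction.toPermHom E ↥A
    have hA : Nat.card ↥A = 3 := hO3
    rcases (inferInstance : f.ker.Normal).eq_bot_or_eq_top with hk | hk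
    · have h3 : Nat.card E ≤ Nat.card (Equiv.Perm ↥A) :=
        Nat.card_le_card_of_injective f ((MonoidHom.ker_eq_bot_iff f).1 hk)
      rw [Nat.card_perm, hA] at h3
      have : Nat.factorial 3 = 6 := rfl
      omega
    · apply hw0'
      apply hfix
      intro g
      have h3 : g ∈ f.ker := by rw [hk]; exact Subgroup.mem_top g
      have h4 := DFunLike.congr_fun (MonoidHom.mem_ker.1 h3) (⟨(w : V), hwO⟩ : ↥A)
      exact congrArg Subtype.val h4
  have hHeq : stabilizer E O = H := by
    rcases hH.le_iff.1 hHO with h | h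
    · exact absurd h htop
    · exact h
  obtain ⟨a, b, c, hab, hac, hbc, hFabc⟩ := Finset.card_eq_three.1 hF3
  have hs' : a + (b + c) = 0 := by
    rw [hFabc, Finset.sum_insert (by simp [hab, hac]), Finset.sum_pair hbc] at hs
    exact hs
  have hc : c = a + b := by
    have h3 := h2 (a + b)
    have h4 : a + b + c = 0 := by rw [add_assoc]; exact hs'
    have h5 : a + b + c = (a + b) + (a + b) := by rw [h3, h4]
    exact add_left_cancel h5
  have hmem : ∀ x, x ∈ O ↔ x = a ∨ x = b ∨ x = c := by
    intro x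
    rw [← hF, hFabc]
    simp
  have hC : stabilizer E ((a, b) : V × V) ≤ stabilizer E O := by
    intro g hg
    rw [mem_stabilizer_iff, Prod.smul_mk, Prod.mk.injEq] at hg
    have hgc : g • c = c := by rw [hc, smul_add, hg.1, hg.2]
    have hgx : ∀ x ∈ O, g • x = x := by
      intro x hx
      rcases (hmem x).1 hx with rfl | rfl | rfl
      · exact hg.1
      · exact hg.2
      · exact hgc
    rw [mem_stabilizer_iff]
    ext y
    rw [Set.mem_smul_set]
    constructor
    · rintro ⟨x, hx, rfl⟩
      rw [hgx x hx]; exact hx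
    · intro hy
      exact ⟨y, hy, hgx y hy⟩
  have h4 := Subgroup.card_mul_index (stabilizer E ((a, b) : V × V))
  have h5 : (stabilizer E ((a, b) : V × V)).index ≤ Nat.card V ^ 2 := by
    rw [index_stabilizer]
    refine (Finite.card_subtype_le _).trans ?_
    rw [Nat.card_prod, pow_two]
  have h6 : Nat.card ↥(stabilizer E ((a, b) : V × V)) ≤ Nat.card ↥H := by
    rw [← hHeq]
    exact Nat.card_le_card_of_injective _ (Subgroup.inclusion_injective hC)
  rw [← h4]
  exact Nat.mul_le_mul h6 h5

end Cfsg.Agent.H943.E7V.Large
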