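import Cfsg.Agent.H943.E7V.NoFix
import Cfsg.Agent.H943.E7V.Fix
import Cfsg.Agent.S1064
import Cfsg.Agent.S1054
import Cfsg.Agent.S1265

/-!
# Maximal subgroups of `E₇(2)` with simple generalized Fitting subgroup: no fixed vectors
-/

set_option autoImplicit false
set_option linter.unusedSectionVars false

namespace Cfsg.Agent.H943.E7V

open Cfsg Cfsg.Lie IsLocalRing Module Cfsg.Agent.H657
open Cfsg.Agent.H943.E7V.Block Cfsg.Agent.H943.E7V.AdmMain Cfsg.Agent.H943.E7V.TorMain

/-- `S` has a representation of degree 56 with the Brauer values of the 56-dimensional module of `E₇(2)`, without fixed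
vectors and functionals -/
def AdmF (S : Type*) [Group S] : Prop :=
  ∃ (M : Ideal AlgInt) (V : ValuationSubring ℂ), IsPModular 2 M ∧ Above M V ∧
    ∃ σ : Representation (ResidueField V) S (Fin 56 → ResidueField V), Vals σ ∧
      (∀ v, (∀ s, σ s v = v) → v = 0) ∧
      (∀ f : Module.Dual (ResidueField V) (Fin 56 → ResidueField V), (∀ s, f ∘ₗ σ s = f) → f = 0)

theorem AdmF.adm {S : Type*} [Group S] (h : AdmF S) : Adm S := by
  obtain ⟨M, V, hM, hV, σ, h, -⟩ := h
  exact ⟨M, V, hM, hV, σ, h⟩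

namespace Max

theorem card_eq : Nat.card ↥(chevE7.group (ZMod 2)) =
    2 ^ 63 * (2 ^ 2 - 1) * (2 ^ 6 - 1) * (2 ^ 8 - 1) * (2 ^ 10 - 1) * (2 ^ 12 - 1) * (2 ^ 14 - 1) * (2 ^ 18 - 1) := by
  have h := S1064.result (F := ZMod 2) (q := 2) (ZMod.card 2)
  have h1 : Nat.gcd 2 (2 - 1) = 1 := by decide
  rw [h1, one_mul] at h
  exact h

theorem two_pow_lt : 2 ^ 132 < Nat.card ↥(chevE7.group (ZMod 2)) := by
  rw [card_eq]
  norm_num

instance fin : Finite ↥(chevE7.group (ZMod 2)) := Nat.finite_of_card_ne_zero (by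
  have := two_pow_lt
  omega)

theorem simp : IsSimpleGroup ↥(chevE7.group (ZMod 2)) := (S1054.result (F := ZMod 2) chevE7 (by simp)).1

theorem noFix_RR : NoFix.NoFix RR := ⟨fun _ h => Fix.fix_vec h, fun _ h => Fix.fix_fun h⟩

/-- from matrices to `AdmF` -/
theorem admF_of {S : Type*} [Group S] {f : S →* ↥(chevE7.group (ZMod 2))} (hf : Function.Injective f)
    (h : NoFix.NoFix (RR.comp f)) : AdmF S := by
  have hfact : Fact (Nat.Prime 2) := ⟨Nat.prime_two⟩
  obtain ⟨M, hM⟩ := Cfsg.Agent.Blocks.ExistsModular.exists_isPModular Nat.prime_two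
  obtain ⟨V, hV⟩ := exists_above hM
  have : CharP (ResidueField V) 2 := hV.charP hM
  have hv : Vals ((sg V).comp f) := by
    have H := vals (V := V)
    have ho : ∀ g, orderOf (f g) = orderOf g := fun g => orderOf_injective f hf g
    refine ⟨?_, fun g hg => ?_, fun g hg => ?_, fun g hg => ?_, fun g hg => ?_, fun g hg => ?_,
      fun g hg => ?_, fun g hg j hj => ?_⟩
    · have := H.one
      rw [← map_one f] at this
      exact this
    · exact H.three (f g) (by rw [ho, hg])
    · exact H.five (f g) (by rw [ho, hg])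
    · exact H.seven (f g) (by rw [ho, hg])
    · exact H.thirteen (f g) (by rw [ho, hg])
    · obtain ⟨m, hm⟩ := H.fifteen (f g) (by rw [ho, hg])
      refine ⟨m, fun j hj => ?_⟩
      have := hm j hj
      rw [← map_pow] at this
      exact this
    · have := H.three_inv (f g) (by rw [ho, hg])
      rw [← map_inv] at this
      exact this
    · have := H.seven_pow (f g) (by rw [ho, hg]) j hj
      rw [← map_pow] at this
      exact this
  refine ⟨M, V, hM, hV, (sg V).comp f, hv, fun v hv => ?_, fun l hl => ?_⟩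
  · exact NoFix.ext_vec h e56 hv
  · exact NoFix.ext_fun h e56 hl

variable {S : Type*} [Group S]

/-- **Maximal subgroups of `E₇(2)`**: `F*(H)` simple with `|Out| ∣ 2 ^ k`. -/
theorem admF_two [Finite S] [IsSimpleGroup S] (hna : ¬ IsMulCommutative S) {m k : ℕ}
    (hm : Nat.card (MulAut S) = Nat.card S * m) (hk : m ∣ 2 ^ k) (hb : Nat.card S * m ≤ 2 ^ 76)
    (H : Subgroup ↥(chevE7.group (ZMod 2))) (hH : IsCoatom H) (e : ↥(generalizedFittingSubgroup ↥H) ≃* S) : AdmF S := by
  refine admF_of (NoFix.emb_injective H e) (NoFix.max_two RR noFix_RR hna hm hk ?_ H hH e)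
  refine lt_of_le_of_lt (Nat.mul_le_mul_right _ hb) (lt_of_eq_of_lt ?_ two_pow_lt)
  rw [card_D1, ← pow_add]

/-- **Maximal subgroups of `E₇(2)`**: `F*(H)` simple with `|Out| ∣ 3 * 2 ^ k`. -/
theorem admF_three [Finite S] [IsSimpleGroup S] (hna : ¬ IsMulCommutative S) {m k : ℕ}
    (hm : Nat.card (MulAut S) = Nat.card S * m) (hk : m ∣ 3 * 2 ^ k) (hb : Nat.card S * m ≤ 2 ^ 20)
    (H : Subgroup ↥(chevE7.group (ZMod 2))) (hH : IsCoatom H) (e : ↥(generalizedFittingSubgroup ↥H) ≃* S) : AdmF S := by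
  have := simp
  refine admF_of (NoFix.emb_injective H e) (NoFix.max_three (lt_trans (by norm_num) two_pow_lt) RR noFix_RR hna hm hk
    ?_ H hH e)
  refine lt_of_le_of_lt (Nat.mul_le_mul_right _ hb) (lt_of_eq_of_lt ?_ two_pow_lt)
  rw [card_D1, ← pow_mul, ← pow_add]

end Max

end Cfsg.Agent.H943.E7V
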