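import Cfsg.Agent.H943.E7V.Large
import Cfsg.Agent.H943.E7V.AdmMain
import Cfsg.Agent.S1265
import Cfsg.Agent.Lib.GenFitting

/-!
# Groups of matrices without fixed vectors and functionals
-/

set_option autoImplicit false
set_option linter.unusedSectionVars false

namespace Cfsg.Agent.H943.E7V.NoFix

open Module Cfsg.Agent.H943.E7V.AdmMain

/-- the group has no fixed vectors and no fixed functionals -/
def NoFix {S : Type*} [Group S] {ι : Type*} [Fintype ι] [DecidableEq ι] {F : Type*} [Field F] (R : S →* Matrix ι ι F) : Prop :=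
  (∀ v : ι → F, (∀ s, (R s).mulVec v = v) → v = 0) ∧ (∀ v : ι → F, (∀ s, Matrix.vecMul v (R s) = v) → v = 0)

section act

variable {E : Type*} [Group E] {ι : Type*} [Fintype ι] [DecidableEq ι] (R : E →* Matrix ι ι (ZMod 2))

/-- the action on vectors -/
@[reducible] def actM : DistribMulAction E (ι → ZMod 2) where
  smul g v := (R g).mulVec v
  one_smul v := by
    show (R 1).mulVec v = v
    rw [map_one, Matrix.one_mulVec]
  mul_smul a b v := by
    show (R (a * b)).mulVec v = (R a).mulVec ((R b).mulVec v)
    rw [map_mul, Matrix.mulVec_mulVec]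
  smul_zero g := Matrix.mulVec_zero _
  smul_add g v w := Matrix.mulVec_add _ _ _

/-- the action on functionals -/
@[reducible] def actD : DistribMulAction E (ι → ZMod 2) where
  smul g v := Matrix.vecMul v (R g⁻¹)
  one_smul v := by
    show Matrix.vecMul v (R 1⁻¹) = v
    rw [inv_one, map_one, Matrix.vecMul_one]
  mul_smul a b v := by
    show Matrix.vecMul v (R (a * b)⁻¹) = Matrix.vecMul (Matrix.vecMul v (R b⁻¹)) (R a⁻¹)
    rw [mul_inv_rev, map_mul, Matrix.vecMul_vecMul]
  smul_zero g := Matrix.zero_vecMul _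
  smul_add g v w := Matrix.add_vecMul _ _ _

variable [Finite E]

theorem card_vec : Nat.card (ι → ZMod 2) = 2 ^ Fintype.card ι := by
  rw [Nat.card_eq_fintype_card, Fintype.card_fun, ZMod.card]

theorem add_self_vec (v : ι → ZMod 2) : v + v = 0 := by
  funext i
  exact CharTwo.add_self_eq_zero (v i)

theorem noFix_two (hfix : NoFix R) {H : Subgroup E} (hH : IsCoatom H) (S : Subgroup H) [S.Normal]
    {k : ℕ} (hk : S.index ∣ 2 ^ k) (hb : Nat.card H * 2 ^ Fintype.card ι < Nat.card E) :
    NoFix (R.comp (H.subtype.comp S.subtype)) := by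
  constructor
  · intro v hv
    by_contra h0
    letI := actM R
    have h1 := Large.large_two (E := E) (V := ι → ZMod 2) add_self_vec (fun v hv => hfix.1 v hv) hH S hk h0
      (fun s hs => hv ⟨s, hs⟩)
    rw [card_vec] at h1
    omega
  · intro v hv
    by_contra h0
    letI := actD R
    have h1 := Large.large_two (E := E) (V := ι → ZMod 2) add_self_vec (fun v hv => hfix.2 v fun s => by
      have := hv s⁻¹
      have h2 : Matrix.vecMul v (R s⁻¹⁻¹) = v := this
      rwa [inv_inv] at h2) hH S hk h0
      (fun s hs => by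
        have h2 : Matrix.vecMul v (R ((s : E))⁻¹) = v := hv ⟨s⁻¹, inv_mem hs⟩
        exact h2)
    rw [card_vec] at h1
    omega

theorem noFix_three [IsSimpleGroup E] (hE : 6 < Nat.card E) (hfix : NoFix R) {H : Subgroup E} (hH : IsCoatom H)
    (S : Subgroup H) [S.Normal] {k : ℕ} (hk : S.index ∣ 3 * 2 ^ k)
    (hb : Nat.card H * (2 ^ Fintype.card ι) ^ 2 < Nat.card E) :
    NoFix (R.comp (H.subtype.comp S.subtype)) := by
  constructor
  · intro v hv
    by_contra h0
    letI := actM R
    have h1 := Large.large (E := E) (V := ι → ZMod 2) hE add_self_vec (fun v hv => hfix.1 v hv) hH S hk h0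
      (fun s hs => hv ⟨s, hs⟩)
    rw [card_vec] at h1
    omega
  · intro v hv
    by_contra h0
    letI := actD R
    have h1 := Large.large (E := E) (V := ι → ZMod 2) hE add_self_vec (fun v hv => hfix.2 v fun s => by
      have := hv s⁻¹
      have h2 : Matrix.vecMul v (R s⁻¹⁻¹) = v := this
      rwa [inv_inv] at h2) hH S hk h0
      (fun s hs => by
        have h2 : Matrix.vecMul v (R ((s : E))⁻¹) = v := hv ⟨s⁻¹, inv_mem hs⟩
        exact h2)
    rw [card_vec] at h1
    omega

end act

section ext

variable {ι : Type*} [Fintype ι] [DecidableEq ι] {F₀ : Type*} [Field F₀] {K : Type*} [Field K] [Algebra F₀ K]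
  {S : Type*} [Group S]

theorem noFix_equiv {S T : Type*} [Group S] [Group T] {R : S →* Matrix ι ι F₀} (h : NoFix R) (e : T ≃* S) :
    NoFix (R.comp (e : T →* S)) := by
  constructor
  · intro v hv
    refine h.1 v fun s => ?_
    have := hv (e.symm s)
    simpa using this
  · intro v hv
    refine h.2 v fun s => ?_
    have := hv (e.symm s)
    simpa using this

/-- **No fixed vectors after an extension of the field.** -/
theorem ext_vec {R : S →* Matrix ι ι F₀} (h : NoFix R) {n : ℕ} (e : ι ≃ Fin n) {v : Fin n → K}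
    (hv : ∀ s, matRep K R e s v = v) : v = 0 := by
  by_contra h0
  obtain ⟨i, hi⟩ := Function.ne_iff.1 h0
  have h1 : ∃ l : Module.Dual F₀ K, l (v i) ≠ 0 := by
    by_contra hcon
    push Not at hcon
    exact hi ((Module.forall_dual_apply_eq_zero_iff F₀ (v i)).1 hcon)
  obtain ⟨l, hl⟩ := h1
  have h2 := h.1 (fun a => l (v (e a))) fun s => by
    funext a
    have h3 := congrFun (hv s) (e a)
    rw [matRep_apply, Matrix.toLin'_apply, Matrix.mulVec, dotProduct] at h3
    rw [Matrix.mulVec, dotProduct]
    conv_rhs => rw [← h3, map_sum, ← Equiv.sum_comp e]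
    refine Finset.sum_congr rfl fun b _ => ?_
    rw [Matrix.reindex_apply, Matrix.submatrix_apply, Matrix.map_apply, Equiv.symm_apply_apply,
      Equiv.symm_apply_apply, ← Algebra.smul_def, map_smul, smul_eq_mul]
  have h3 := congrFun h2 (e.symm i)
  simp only [Equiv.apply_symm_apply, Pi.zero_apply] at h3
  exact hl h3

theorem ext_fun {R : S →* Matrix ι ι F₀} (h : NoFix R) {n : ℕ} (e : ι ≃ Fin n) {f : Module.Dual K (Fin n → K)}
    (hf : ∀ s, f ∘ₗ matRep K R e s = f) : f = 0 := by
  classical
  by_contra h0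
  have h4 : ∃ i, f (Pi.single i 1) ≠ 0 := by
    by_contra hcon
    push Not at hcon
    exact h0 (LinearMap.pi_ext' fun i => LinearMap.ext_ring (by simpa using hcon i))
  obtain ⟨i, hi⟩ := h4
  have h1 : ∃ l : Module.Dual F₀ K, l (f (Pi.single i 1)) ≠ 0 := by
    by_contra hcon
    push Not at hcon
    exact hi ((Module.forall_dual_apply_eq_zero_iff F₀ _).1 hcon)
  obtain ⟨l, hl⟩ := h1
  have h2 := h.2 (fun a => l (f (Pi.single (e a) 1))) fun s => by
    funext a
    have h3 := LinearMap.congr_fun (hf s) (Pi.single (e a) 1)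
    rw [LinearMap.comp_apply, matRep_apply, Matrix.toLin'_apply] at h3
    have h5 : (Matrix.reindex e e ((R s).map (algebraMap F₀ K))).mulVec (Pi.single (e a) 1) =
        ∑ b : ι, (algebraMap F₀ K (R s b a)) • (Pi.single (e b) (1 : K) : Fin n → K) := by
      funext j
      rw [Matrix.mulVec_single_one, Finset.sum_apply]
      rw [Finset.sum_eq_single (e.symm j)]
      · simp [Matrix.col]
      · intro b _ hb
        rw [Pi.smul_apply, Pi.single_eq_of_ne (fun h => hb (by rw [h, Equiv.symm_apply_apply])), smul_zero]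
      · intro h
        exact absurd (Finset.mem_univ _) h
    rw [h5, map_sum] at h3
    rw [Matrix.vecMul, dotProduct]
    conv_rhs => rw [← h3, map_sum]
    refine Finset.sum_congr rfl fun b _ => ?_
    rw [map_smul, smul_eq_mul, ← Algebra.smul_def, map_smul, smul_eq_mul, mul_comm]
  have h3 := congrFun h2 (e.symm i)
  simp only [Equiv.apply_symm_apply, Pi.zero_apply] at h3
  exact hl h3

end ext

/-- the index of a normal subgroup containing its centralizer -/
theorem index_dvd {X : Type*} [Group X] [Finite X] (N : Subgroup X) [N.Normal]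
    (hC : Subgroup.centralizer (N : Set X) ≤ N) (hZ : Subgroup.center ↥N = ⊥) {m : ℕ}
    (hm : Nat.card (MulAut ↥N) = Nat.card ↥N * m) : N.index ∣ m := by
  have hinj : Function.Injective (MulAut.conjNormal (H := N)) := by
    rw [injective_iff_map_eq_one]
    intro g hg
    have h1 : ∀ n : ↥N, g * n * g⁻¹ = n := by
      intro n
      have h2 := DFunLike.congr_fun hg n
      have h3 := congrArg Subtype.val h2
      rwa [MulAut.conjNormal_apply] at h3
    have h2 : g ∈ Subgroup.centralizer (N : Set X) := by
      rw [Subgroup.mem_centralizer_iff]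
      intro n hn
      have h3 := h1 ⟨n, hn⟩
      exact (mul_inv_eq_iff_eq_mul.1 h3).symm
    have h3 : (⟨g, hC h2⟩ : ↥N) ∈ Subgroup.center ↥N := by
      rw [Subgroup.mem_center_iff]
      intro n
      apply Subtype.ext
      have h4 := h1 n
      exact (mul_inv_eq_iff_eq_mul.1 h4).symm
    rw [hZ, Subgroup.mem_bot] at h3
    exact congrArg Subtype.val h3
  have h1 := Subgroup.card_dvd_of_injective _ hinj
  rw [hm, ← N.card_mul_index] at h1
  exact Nat.dvd_of_mul_dvd_mul_left Nat.card_pos h1

section max

open Cfsg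

variable {S : Type*} [Group S]

theorem center_bot [IsSimpleGroup S] (hna : ¬ IsMulCommutative S) : Subgroup.center S = ⊥ := by
  rcases (inferInstance : (Subgroup.center S).Normal).eq_bot_or_eq_top with h | h
  · exact h
  · exact absurd ⟨⟨fun a b => ((Subgroup.mem_center_iff.1 (by rw [h]; exact Subgroup.mem_top b)) a)⟩⟩ hna

theorem normal_gf (X : Type*) [Group X] : (generalizedFittingSubgroup X).Normal := by
  have := Cfsg.Agent.Lib.GenFitting.genFitting_characteristic (G := X)
  infer_instance

/-- the index of `F*(X)` in `X` -/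
theorem index_gf [Finite S] [IsSimpleGroup S] (hna : ¬ IsMulCommutative S) {m : ℕ}
    (hm : Nat.card (MulAut S) = Nat.card S * m) {X : Type*} [Group X] [Finite X]
    (e : ↥(generalizedFittingSubgroup X) ≃* S) : (generalizedFittingSubgroup X).index ∣ m := by
  have := normal_gf X
  refine index_dvd _ S1265.result ?_ ?_
  · have h1 : Subgroup.center S = ⊥ := center_bot hna
    have : Nontrivial ↥(generalizedFittingSubgroup X) := e.toEquiv.nontrivial
    have : IsSimpleGroup ↥(generalizedFittingSubgroup X) :=
      IsSimpleGroup.isSimpleGroup_of_surjective (e.symm : S →* _) e.symm.surjective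
    refine center_bot fun hc => hna ⟨⟨fun a b => e.symm.injective ?_⟩⟩
    rw [map_mul, map_mul]
    exact hc.is_comm.comm _ _
  · rw [Nat.card_congr (MulAut.congr e).toEquiv, hm, Nat.card_congr e.toEquiv]

theorem card_le_of_gf [Finite S] [IsSimpleGroup S] (hna : ¬ IsMulCommutative S) {m : ℕ} (hm0 : m ≠ 0)
    (hm : Nat.card (MulAut S) = Nat.card S * m) {X : Type*} [Group X] [Finite X]
    (e : ↥(generalizedFittingSubgroup X) ≃* S) : Nat.card X ≤ Nat.card S * m := by
  have hi := index_gf hna hm e
  rw [← (generalizedFittingSubgroup X).card_mul_index, Nat.card_congr e.toEquiv]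
  exact Nat.mul_le_mul_left _ (Nat.le_of_dvd (Nat.pos_of_ne_zero hm0) hi)

/-- the embedding of `S` -/
def emb {E : Type*} [Group E] (H : Subgroup E) (e : ↥(generalizedFittingSubgroup ↥H) ≃* S) : S →* E :=
  (H.subtype.comp (generalizedFittingSubgroup ↥H).subtype).comp (e.symm : S →* _)

theorem emb_injective {E : Type*} [Group E] (H : Subgroup E) (e : ↥(generalizedFittingSubgroup ↥H) ≃* S) :
    Function.Injective (emb H e) :=
  (H.subtype_injective.comp (generalizedFittingSubgroup ↥H).subtype_injective).comp e.symm.injective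

theorem max_two {E : Type*} [Group E] [Finite E] {ι : Type*} [Fintype ι] [DecidableEq ι] (R : E →* Matrix ι ι (ZMod 2))
    (hR : NoFix R) [Finite S] [IsSimpleGroup S] (hna : ¬ IsMulCommutative S) {m k : ℕ}
    (hm : Nat.card (MulAut S) = Nat.card S * m) (hk : m ∣ 2 ^ k)
    (hb : Nat.card S * m * 2 ^ Fintype.card ι < Nat.card E)
    (H : Subgroup E) (hH : IsCoatom H) (e : ↥(generalizedFittingSubgroup ↥H) ≃* S) : NoFix (R.comp (emb H e)) := by
  have hm0 : m ≠ 0 := fun h => by
    rw [h] at hk
    exact absurd (Nat.eq_zero_of_zero_dvd hk) (pow_ne_zero _ (by norm_num))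
  have hi := index_gf hna hm e
  have hc := card_le_of_gf hna hm0 hm e
  have := normal_gf ↥H
  exact noFix_equiv (noFix_two R hR hH (generalizedFittingSubgroup ↥H) (hi.trans hk)
    (lt_of_le_of_lt (Nat.mul_le_mul_right _ hc) hb)) e.symm

theorem max_three {E : Type*} [Group E] [Finite E] [IsSimpleGroup E] (hE : 6 < Nat.card E)
    {ι : Type*} [Fintype ι] [DecidableEq ι] (R : E →* Matrix ι ι (ZMod 2))
    (hR : NoFix R) [Finite S] [IsSimpleGroup S] (hna : ¬ IsMulCommutative S) {m k : ℕ}
    (hm : Nat.card (MulAut S) = Nat.card S * m) (hk : m ∣ 3 * 2 ^ k)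
    (hb : Nat.card S * m * (2 ^ Fintype.card ι) ^ 2 < Nat.card E)
    (H : Subgroup E) (hH : IsCoatom H) (e : ↥(generalizedFittingSubgroup ↥H) ≃* S) : NoFix (R.comp (emb H e)) := by
  have hm0 : m ≠ 0 := fun h => by
    rw [h] at hk
    exact absurd (Nat.eq_zero_of_zero_dvd hk) (mul_ne_zero (by norm_num) (pow_ne_zero _ (by norm_num)))
  have hi := index_gf hna hm e
  have hc := card_le_of_gf hna hm0 hm e
  have := normal_gf ↥H
  exact noFix_equiv (noFix_three R hE hR hH (generalizedFittingSubgroup ↥H) (hi.trans hk)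
    (lt_of_le_of_lt (Nat.mul_le_mul_right _ hc) hb)) e.symm

end max

end Cfsg.Agent.H943.E7V.NoFix
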