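import Cfsg.Agent.H943.E7V.Max
import Cfsg.Agent.H597.BrInv

/-!
# Scott's lemma and the groups with generators of small fixed spaces
-/

set_option autoImplicit false
set_option linter.unusedSectionVars false

namespace Cfsg.Agent.H943.E7V.Scott

open Cfsg IsLocalRing Module Cfsg.Agent.H657

section scott

variable {k : Type*} [Field k] {V : Type*} [AddCommGroup V] [Module k V] [FiniteDimensional k V] {G : Type*} [Group G]
  (σ : Representation k G V)

/-- the fixed space of `g` -/
def fx (g : G) : Submodule k V := LinearMap.ker (σ g - 1)

variable {σ}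

theorem mem_fx {g : G} {v : V} : v ∈ fx σ g ↔ σ g v = v := by
  rw [fx, LinearMap.mem_ker, LinearMap.sub_apply, Module.End.one_apply, sub_eq_zero]

/-- a vector fixed by generators is fixed -/
theorem fix_of_gen {x y : G} (hxy : Subgroup.closure {x, y} = ⊤) {v : V} (hx : σ x v = v) (hy : σ y v = v) (g : G) :
    σ g v = v := by
  have hle : Subgroup.closure {x, y} ≤ ({ carrier := {g | σ g v = v}
                                          one_mem' := by simp
                                          mul_mem' := fun {a b} ha hb => by
                                            show σ (a * b) v = v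
                                            rw [map_mul, Module.End.mul_apply, hb, ha]
                                          inv_mem' := fun {a} ha => by
                                            show σ a⁻¹ v = v
                                            have ha' : σ a v = v := ha
                                            conv_lhs => rw [← ha']
                                            rw [← Module.End.mul_apply, ← map_mul, inv_mul_cancel, map_one,
                                              Module.End.one_apply] } : Subgroup G) := by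
    rw [Subgroup.closure_le]
    rintro _ (rfl | rfl)
    · exact hx
    · exact hy
  exact hle (by rw [hxy]; exact Subgroup.mem_top g)

theorem fun_of_gen {x y : G} (hxy : Subgroup.closure {x, y} = ⊤) {f : Module.Dual k V} (hx : f ∘ₗ σ x = f)
    (hy : f ∘ₗ σ y = f) (g : G) : f ∘ₗ σ g = f := by
  have hle : Subgroup.closure {x, y} ≤ ({ carrier := {g | f ∘ₗ σ g = f}
                                          one_mem' := by
                                            show f ∘ₗ σ 1 = f
                                            rw [map_one]; rfl
                                          mul_mem' := fun {a b} ha hb => by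
                                            show f ∘ₗ σ (a * b) = f
                                            have ha' : f ∘ₗ σ a = f := ha
                                            have hb' : f ∘ₗ σ b = f := hb
                                            rw [map_mul, Module.End.mul_eq_comp, ← LinearMap.comp_assoc, ha', hb']
                                          inv_mem' := fun {a} ha => by
                                            show f ∘ₗ σ a⁻¹ = f
                                            have ha' : f ∘ₗ σ a = f := ha
                                            conv_lhs => rw [← ha']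
                                            rw [LinearMap.comp_assoc, ← Module.End.mul_eq_comp, ← map_mul, mul_inv_cancel,
                                              map_one]
                                            rfl } : Subgroup G) := by
    rw [Subgroup.closure_le]
    rintro _ (rfl | rfl)
    · exact hx
    · exact hy
  exact hle (by rw [hxy]; exact Subgroup.mem_top g)

/-- **Scott's lemma.** -/
theorem scott (hv : ∀ v, (∀ s, σ s v = v) → v = 0) (hf : ∀ f : Module.Dual k V, (∀ s, f ∘ₗ σ s = f) → f = 0)
    {x y : G} (hxy : Subgroup.closure {x, y} = ⊤) :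
    finrank k (fx σ x) + finrank k (fx σ y) + finrank k (fx σ (x * y)) ≤ finrank k V := by
  set a : Module.End k V := σ x - 1 with ha
  set b : Module.End k V := σ y - 1 with hb
  set c : Module.End k V := σ (x * y) - 1 with hc
  let γ : V →ₗ[k] (LinearMap.range a × LinearMap.range b) := a.rangeRestrict.prod b.rangeRestrict
  let δ : (LinearMap.range a × LinearMap.range b) →ₗ[k] V :=
    (LinearMap.range a).subtype.coprod ((σ x) ∘ₗ (LinearMap.range b).subtype)
  have hγ : Function.Injective γ := by
    rw [← LinearMap.ker_eq_bot, LinearMap.ker_eq_bot']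
    intro v hv'
    have h1 : a v = 0 := congrArg (fun z => (z.1 : V)) hv'
    have h2 : b v = 0 := congrArg (fun z => (z.2 : V)) hv'
    rw [ha, LinearMap.sub_apply, Module.End.one_apply, sub_eq_zero] at h1
    rw [hb, LinearMap.sub_apply, Module.End.one_apply, sub_eq_zero] at h2
    exact hv v (fix_of_gen hxy h1 h2)
  have hδγ : δ ∘ₗ γ = c := by
    ext v
    show (a v) + σ x (b v) = c v
    rw [ha, hb, hc, map_mul]
    simp only [LinearMap.sub_apply, Module.End.one_apply, Module.End.mul_apply, map_sub]
    abel
  have hδ : LinearMap.range δ = ⊤ := by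
    by_contra hne
    obtain ⟨f, hf0, hf1⟩ := Submodule.exists_le_ker_of_lt_top _ (lt_top_iff_ne_top.2 hne)
    apply hf0
    apply hf
    have h1 : ∀ v, f (a v) = 0 := fun v => by
      have h3 : δ (⟨a v, LinearMap.mem_range_self a v⟩, 0) ∈ LinearMap.range δ := LinearMap.mem_range_self _ _
      have h4 := hf1 h3
      rw [LinearMap.mem_ker] at h4
      have h5 : δ (⟨a v, LinearMap.mem_range_self a v⟩, 0) = a v := by
        show a v + σ x ((0 : LinearMap.range b) : V) = a v
        simp
      rwa [h5] at h4
    have h1' : ∀ v, f (σ x v) = f v := fun v => by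
      have := h1 v
      rw [ha, LinearMap.sub_apply, Module.End.one_apply, map_sub, sub_eq_zero] at this
      exact this
    have h2 : ∀ v, f (σ y v) = f v := fun v => by
      have h3 : δ (0, ⟨b v, LinearMap.mem_range_self b v⟩) ∈ LinearMap.range δ := LinearMap.mem_range_self _ _
      have h4 := hf1 h3
      rw [LinearMap.mem_ker] at h4
      have h5 : δ (0, ⟨b v, LinearMap.mem_range_self b v⟩) = σ x (b v) := by
        show ((0 : LinearMap.range a) : V) + σ x (b v) = σ x (b v)
        simp
      rw [h5, h1', hb, LinearMap.sub_apply, Module.End.one_apply, map_sub, sub_eq_zero] at h4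
      exact h4
    exact fun_of_gen hxy (LinearMap.ext h1') (LinearMap.ext h2)
  have e1 := LinearMap.finrank_range_add_finrank_ker a
  have e2 := LinearMap.finrank_range_add_finrank_ker b
  have e3 := LinearMap.finrank_range_add_finrank_ker δ
  rw [hδ, finrank_top, finrank_prod] at e3
  have e4 : finrank k (LinearMap.ker c) ≤ finrank k (LinearMap.ker δ) := by
    have h1 : (LinearMap.ker c).map γ ≤ LinearMap.ker δ := by
      rintro _ ⟨v, hv', rfl⟩
      rw [LinearMap.mem_ker, ← LinearMap.comp_apply, hδγ]
      exact hv'
    have h2 := Submodule.finrank_mono h1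
    rwa [← (Submodule.equivMapOfInjective γ hγ (LinearMap.ker c)).finrank_eq] at h2
  show finrank k (LinearMap.ker a) + finrank k (LinearMap.ker b) + finrank k (LinearMap.ker c) ≤ finrank k V
  omega

/-- an involution in characteristic 2 fixes at least half of the space -/
theorem finrank_fx_two [CharP k 2] {g : G} (hg : g ^ 2 = 1) : finrank k V ≤ 2 * finrank k (fx σ g) := by
  obtain ⟨e, he⟩ : ∃ e : Module.End k V, e = σ g - 1 := ⟨_, rfl⟩
  have hfx : fx σ g = LinearMap.ker e := by rw [he]; rfl
  have h1 : LinearMap.range e ≤ LinearMap.ker e := by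
    rintro _ ⟨v, rfl⟩
    rw [LinearMap.mem_ker]
    have h3 : σ g (σ g v) = v := by
      rw [← Module.End.mul_apply, ← map_mul, ← pow_two, hg, map_one, Module.End.one_apply]
    have h4 : ∀ w : V, w + w = 0 := fun w => by
      have h5 : ((2 : ℕ) : k) • w = 0 := by rw [CharP.cast_eq_zero k 2, zero_smul]
      rw [Nat.cast_smul_eq_nsmul, two_nsmul] at h5
      exact h5
    rw [he, LinearMap.sub_apply, LinearMap.sub_apply, Module.End.one_apply, Module.End.one_apply, map_sub, h3]
    have h5 := h4 (v - σ g v)
    rw [← h5]
    abel
  have h2 := Submodule.finrank_mono h1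
  have h3 := LinearMap.finrank_range_add_finrank_ker e
  rw [hfx]
  omega

end scott

section values

variable {M : Ideal AlgInt} {V : ValuationSubring ℂ} {S : Type*} [Group S]

/-- fixed spaces of elements of odd order -/
theorem finrank_fx (hM : IsPModular 2 M) (hV : Above M V) {n : ℕ}
    (σ : Representation (ResidueField V) S (Fin n → ResidueField V)) {g : S} {m : ℕ} (hm : orderOf g = m)
    (h2 : m.Coprime 2) :
    ∑ j ∈ Finset.range m, bc 2 σ (g ^ j) = (m : ℂ) * (finrank (ResidueField V) (fx σ g) : ℂ) := by
  classical
  subst hm
  have hfin : IsOfFinOrder g := by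
    rw [← orderOf_pos_iff]
    rcases Nat.eq_zero_or_pos (orderOf g) with h | h
    · rw [h] at h2
      exact absurd h2 (by decide)
    · exact h
  have : Finite ↥(Subgroup.zpowers g) := hfin.finite_zpowers
  let _ : Fintype ↥(Subgroup.zpowers g) := Fintype.ofFinite _
  have h1 := H597.BrInv.C hM hV (P := ↥(Subgroup.zpowers g)) (by
    rw [← Nat.card_eq_fintype_card, Nat.card_zpowers]; exact h2) (σ.comp (Subgroup.zpowers g).subtype)
  rw [← Nat.card_eq_fintype_card, Nat.card_zpowers] at h1
  have h3 : Representation.invariants (σ.comp (Subgroup.zpowers g).subtype) = fx σ g := by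
    ext v
    rw [Representation.mem_invariants, mem_fx]
    constructor
    · intro h
      exact h ⟨g, Subgroup.mem_zpowers g⟩
    · rintro h ⟨y, n, rfl⟩
      show σ (g ^ n) v = v
      have h5 : g ^ n ∈ ({ carrier := {g | σ g v = v}
                           one_mem' := by simp
                           mul_mem' := fun {a b} ha hb => by
                             show σ (a * b) v = v
                             rw [map_mul, Module.End.mul_apply, hb, ha]
                           inv_mem' := fun {a} ha => by
                             show σ a⁻¹ v = v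
                             have ha' : σ a v = v := ha
                             conv_lhs => rw [← ha']
                             rw [← Module.End.mul_apply, ← map_mul, inv_mul_cancel, map_one,
                               Module.End.one_apply] } : Subgroup S) :=
        Subgroup.zpow_mem _ h n
      exact h5
  rw [h3] at h1
  rw [← h1]
  refine Finset.sum_bij (fun j _ => ⟨g ^ j, j, zpow_natCast g j⟩) (fun _ _ => Finset.mem_univ _) ?_ ?_ ?_
  · intro i hi j hj hij
    exact pow_injOn_Iio_orderOf (Finset.mem_range.1 hi) (Finset.mem_range.1 hj) (congrArg Subtype.val hij)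
  · rintro ⟨y, hy⟩ _
    obtain ⟨j, hj, hjy⟩ := (hfin.mem_zpowers_iff_mem_range_orderOf).1 hy |> Finset.mem_image.1
    exact ⟨j, hj, Subtype.ext hjy⟩
  · intro j _
    rfl

end values

section rows

variable {M : Ideal AlgInt} {V : ValuationSubring ℂ} {S : Type*} [Group S]
  {σ : Representation (ResidueField V) S (Fin 56 → ResidueField V)}

/-- fixed spaces of elements of prime order with the same value on all the powers -/
theorem finrank_prime (hM : IsPModular 2 M) (hV : Above M V) (H : Vals σ) {g : S} {p : ℕ} (hp : p.Prime)
    (hp2 : p ≠ 2) (hg : orderOf g = p) {t : ℤ} (ht : ∀ j, ¬ p ∣ j → bc 2 σ (g ^ j) = t) :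
    (p : ℤ) * (finrank (ResidueField V) (fx σ g) : ℤ) = 56 + (p - 1) * t := by
  have h1 := finrank_fx hM hV σ hg ((Nat.coprime_primes hp Nat.prime_two).2 hp2)
  rw [← Finset.add_sum_erase _ _ (Finset.mem_range.2 hp.pos), pow_zero, H.one] at h1
  have h2 : ∀ j ∈ (Finset.range p).erase 0, bc 2 σ (g ^ j) = t := by
    intro j hj
    rw [Finset.mem_erase, Finset.mem_range] at hj
    exact ht j fun h => hj.1 (Nat.eq_zero_of_dvd_of_lt h hj.2)
  rw [Finset.sum_congr rfl h2, Finset.sum_const, Finset.card_erase_of_mem (Finset.mem_range.2 hp.pos),
    Finset.card_range, nsmul_eq_mul, Nat.cast_sub hp.one_lt.le] at h1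
  have h3 : (56 : ℤ) + (p - 1) * t = (p : ℤ) * (finrank (ResidueField V) (fx σ g) : ℤ) := by
    exact_mod_cast h1
  exact h3.symm

theorem orderOf_pow_prime {g : S} {p : ℕ} (hp : p.Prime) (hg : orderOf g = p) {j : ℕ} (hj : ¬ p ∣ j) :
    orderOf (g ^ j) = p := by
  rw [Nat.Coprime.orderOf_pow (by rw [hg]; exact (hp.coprime_iff_not_dvd).2 hj), hg]

theorem finrank_five (hM : IsPModular 2 M) (hV : Above M V) (H : Vals σ) {g : S} (hg : orderOf g = 5) :
    finrank (ResidueField V) (fx σ g) = 16 := by
  have h1 := finrank_prime hM hV H (by norm_num) (by norm_num) hg (t := 6) fun j hj => by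
    rw [H.five _ (orderOf_pow_prime (by norm_num) hg hj)]; norm_num
  omega

theorem finrank_thirteen (hM : IsPModular 2 M) (hV : Above M V) (H : Vals σ) {g : S} (hg : orderOf g = 13) :
    finrank (ResidueField V) (fx σ g) = 8 := by
  have h1 := finrank_prime hM hV H (by norm_num) (by norm_num) hg (t := 4) fun j hj => by
    rw [H.thirteen _ (orderOf_pow_prime (by norm_num) hg hj)]; norm_num
  omega

theorem bc_three_pow (H : Vals σ) {g : S} (hg : orderOf g = 3) {t : ℤ} (ht : bc 2 σ g = t) {j : ℕ} (hj : ¬ 3 ∣ j) :
    bc 2 σ (g ^ j) = t := by
  have h3 : g ^ 3 = 1 := by rw [← hg, pow_orderOf_eq_one]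
  have h1 : g ^ j = g ^ (j % 3) := by
    conv_lhs => rw [← Nat.div_add_mod j 3, pow_add, pow_mul, h3, one_pow, one_mul]
  have h2 : j % 3 = 1 ∨ j % 3 = 2 := by omega
  rcases h2 with h2 | h2
  · rw [h1, h2, pow_one, ht]
  · have h4 : g ^ 2 = g⁻¹ := by
      rw [eq_inv_iff_mul_eq_one, ← pow_succ, h3]
    rw [h1, h2, h4, H.three_inv g hg, ht]

theorem finrank_three (hM : IsPModular 2 M) (hV : Above M V) (H : Vals σ) {g : S} (hg : orderOf g = 3) {t : ℤ}
    (ht : bc 2 σ g = t) : 3 * (finrank (ResidueField V) (fx σ g) : ℤ) = 56 + 2 * t := by
  have h1 := finrank_prime hM hV H (by norm_num) (by norm_num) hg fun j hj => bc_three_pow H hg ht hj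
  push_cast at h1
  linarith

/-- **No (2,5,5)-generated groups.** -/
theorem not_255 (h : AdmF S) {x y : S} (hx : orderOf x = 5) (hy : orderOf y = 5) (hz : (x * y) ^ 2 = 1)
    (hc : Subgroup.closure {x, y} = ⊤) : False := by
  obtain ⟨M, V, hM, hV, σ, H, h1, h2⟩ := h
  have : Fact (Nat.Prime 2) := ⟨Nat.prime_two⟩
  have : CharP (ResidueField V) 2 := hV.charP hM
  have h3 := scott h1 h2 hc
  have h4 := finrank_fx_two (σ := σ) hz
  rw [finrank_five hM hV H hx, finrank_five hM hV H hy] at h3
  rw [finrank_fin_fun] at h3 h4
  omega

/-- **No (3,3,13)-generated groups** with the values 2, 20 at the generators. -/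
theorem not_3_3_13 {M : Ideal AlgInt} {V : ValuationSubring ℂ} (hM : IsPModular 2 M) (hV : Above M V)
    {σ : Representation (ResidueField V) S (Fin 56 → ResidueField V)} (H : Vals σ)
    (h1 : ∀ v, (∀ s, σ s v = v) → v = 0)
    (h2 : ∀ f : Module.Dual (ResidueField V) (Fin 56 → ResidueField V), (∀ s, f ∘ₗ σ s = f) → f = 0)
    {x y : S} (hx : orderOf x = 3) (hy : orderOf y = 3) (hz : orderOf (x * y) = 13)
    (hb : (bc 2 σ x = 2 ∧ bc 2 σ y = 20) ∨ (bc 2 σ x = 20 ∧ bc 2 σ y = 2))
    (hc : Subgroup.closure {x, y} = ⊤) : False := by
  have h3 := scott h1 h2 hc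
  rw [finrank_thirteen hM hV H hz, finrank_fin_fun] at h3
  rcases hb with ⟨h4, h5⟩ | ⟨h4, h5⟩
  · have h6 := finrank_three hM hV H hx (t := 2) (by rw [h4]; norm_num)
    have h7 := finrank_three hM hV H hy (t := 20) (by rw [h5]; norm_num)
    omega
  · have h6 := finrank_three hM hV H hx (t := 20) (by rw [h4]; norm_num)
    have h7 := finrank_three hM hV H hy (t := 2) (by rw [h5]; norm_num)
    omega

end rows

end Cfsg.Agent.H943.E7V.Scott
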